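import Mathlib

/-!
# Group calculus for the recognition of `L₃(3)` from an involution centralizer `GL(2,3)`

A subgroup `Q` of order `27` centralizing an element `y` of order three, normalized by a four-group
`⟨t, u⟩`: fixed points of the involutions, and a configuration which cannot happen.
-/

set_option autoImplicit false

namespace Cfsg.Agent.Lib.GL23Rec

open Subgroup

universe u

variable {G : Type u} [Group G]

lemma mem_zpowers_three {c a : G} (hc : c ^ 3 = 1) (ha : a ∈ zpowers c) :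
    a = 1 ∨ a = c ∨ a = c⁻¹ := by
  obtain ⟨n, rfl⟩ := mem_zpowers_iff.1 ha
  have h3 : c ^ (3 : ℤ) = 1 := by exact_mod_cast hc
  have h : c ^ n = c ^ (n % 3) := by
    conv_lhs => rw [← Int.emod_add_mul_ediv n 3, zpow_add, zpow_mul, h3, one_zpow, mul_one]
  have hr : n % 3 = 0 ∨ n % 3 = 1 ∨ n % 3 = 2 := by omega
  rw [h]
  rcases hr with hr | hr | hr <;> rw [hr]
  · left
    simp
  · right; left
    simp
  · right; right
    apply eq_inv_of_mul_eq_one_left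
    rw [show c ^ (2 : ℤ) * c = c ^ 3 by
      rw [show (2 : ℤ) = ((2 : ℕ) : ℤ) by norm_num, zpow_natCast, ← pow_succ]]
    exact hc

lemma inverts_of_fixfree [Finite G] {Q : Subgroup G} {τ : G} (hτ : τ ^ 2 = 1)
    (hn : ∀ a ∈ Q, τ * a * τ⁻¹ ∈ Q) (hfix : ∀ a ∈ Q, a * τ = τ * a → a = 1) :
    ∀ n ∈ Q, τ * n * τ⁻¹ = n⁻¹ := by
  intro n hn'
  have hτi : τ⁻¹ = τ := by
    rw [inv_eq_iff_mul_eq_one, ← pow_two, hτ]
  let f : Q → Q := fun a => ⟨(a : G)⁻¹ * (τ * a * τ⁻¹), mul_mem (inv_mem a.2) (hn a a.2)⟩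
  have hf : Function.Injective f := by
    intro a b hab
    have h1 : (a : G)⁻¹ * (τ * a * τ⁻¹) = (b : G)⁻¹ * (τ * b * τ⁻¹) := congrArg Subtype.val hab
    have h2 : ((b : G) * (a : G)⁻¹) * τ = τ * ((b : G) * (a : G)⁻¹) := by
      have h3 : (a : G)⁻¹ * τ * a = (b : G)⁻¹ * τ * b := by
        have := congrArg (· * τ) h1
        simpa [mul_assoc] using this
      calc ((b : G) * (a : G)⁻¹) * τ = b * ((a : G)⁻¹ * τ * a) * (a : G)⁻¹ := by group
        _ = b * ((b : G)⁻¹ * τ * b) * (a : G)⁻¹ := by rw [h3]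
        _ = τ * ((b : G) * (a : G)⁻¹) := by group
    have h4 := hfix _ (mul_mem b.2 (inv_mem a.2)) h2
    have h5 : (b : G) = a := by
      have := eq_inv_of_mul_eq_one_left h4
      simpa using this
    exact Subtype.ext h5.symm
  obtain ⟨a, ha⟩ := (Finite.injective_iff_surjective.1 hf) ⟨n, hn'⟩
  have hna : n = (a : G)⁻¹ * (τ * a * τ⁻¹) := (congrArg Subtype.val ha).symm
  rw [hna]
  simp only [mul_inv_rev, inv_inv, hτi]
  have h2 : τ * τ = 1 := by rw [← pow_two, hτ]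
  calc τ * ((a : G)⁻¹ * (τ * a * τ)) * τ = τ * (a : G)⁻¹ * τ * a * (τ * τ) := by group
    _ = τ * (a : G)⁻¹ * τ * a := by rw [h2, mul_one]
    _ = _ := by group

lemma card_map_subtype {Q : Subgroup G} (H : Subgroup Q) : Nat.card (H.map Q.subtype) = Nat.card H :=
  (Nat.card_congr (Subgroup.equivMapOfInjective H Q.subtype Q.subtype_injective).toEquiv).symm

/-- Some element of `Q` is fixed by `τ`. -/
lemma exists_fix [Finite G] {Q : Subgroup G} {t τ : G} (hQ : Nat.card Q = 27) (ht : t ^ 2 = 1)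
    (hτ : τ ^ 2 = 1) (hnt : ∀ a ∈ Q, t * a * t⁻¹ ∈ Q) (hnτ : ∀ a ∈ Q, τ * a * τ⁻¹ ∈ Q)
    (hs1 : ∀ H : Subgroup G, H ≤ Q → H ≤ centralizer ({t} : Set G) → Nat.card H ∣ 3)
    (hs2 : ∀ H : Subgroup G, H ≤ Q → H ≤ centralizer ({t * τ} : Set G) → Nat.card H ∣ 3) :
    ∃ c ∈ Q, c ≠ 1 ∧ c * τ = τ * c := by
  by_contra hno
  have hfix : ∀ a ∈ Q, a * τ = τ * a → a = 1 := fun a ha h =>
    by_contra fun h1 => hno ⟨a, ha, h1, h⟩
  have hinv := inverts_of_fixfree hτ hnτ hfix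
  have hab : ∀ a ∈ Q, ∀ b ∈ Q, a * b = b * a := by
    intro a ha b hb
    have h1 := hinv (a * b) (mul_mem ha hb)
    have h4 : τ * (a * b) * τ⁻¹ = (τ * a * τ⁻¹) * (τ * b * τ⁻¹) := by group
    rw [h4, hinv a ha, hinv b hb, mul_inv_rev] at h1
    have h5 := congrArg Inv.inv h1
    simp only [mul_inv_rev, inv_inv] at h5
    exact h5.symm
  have hti : t⁻¹ = t := by
    rw [inv_eq_iff_mul_eq_one, ← pow_two, ht]
  have htt : t * t = 1 := by rw [← pow_two, ht]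
  let f : Q →* Q :=
    { toFun := fun a => ⟨(a : G) * (t * (a : G)⁻¹ * t⁻¹), mul_mem a.2 (hnt _ (inv_mem a.2))⟩
      map_one' := by
        ext
        simp
      map_mul' := by
        intro a b
        apply Subtype.ext
        show ((a : G) * b) * (t * ((a : G) * b)⁻¹ * t⁻¹) =
          ((a : G) * (t * (a : G)⁻¹ * t⁻¹)) * ((b : G) * (t * (b : G)⁻¹ * t⁻¹))
        have h1 := hab (t * (a : G)⁻¹ * t⁻¹) (hnt _ (inv_mem a.2)) ((b : G) * (t * (b : G)⁻¹ * t⁻¹))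
          (mul_mem b.2 (hnt _ (inv_mem b.2)))
        calc ((a : G) * b) * (t * ((a : G) * b)⁻¹ * t⁻¹)
            = (a : G) * (((b : G) * (t * (b : G)⁻¹ * t⁻¹)) * (t * (a : G)⁻¹ * t⁻¹)) := by group
          _ = (a : G) * ((t * (a : G)⁻¹ * t⁻¹) * ((b : G) * (t * (b : G)⁻¹ * t⁻¹))) := by rw [h1]
          _ = _ := by group }
  have hker : Nat.card f.ker ∣ 3 := by
    rw [← card_map_subtype f.ker]
    apply hs1
    · rintro _ ⟨a, -, rfl⟩
      exact a.2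
    · rintro _ ⟨a, ha, rfl⟩
      rw [mem_centralizer_singleton_iff]
      have h1 : (a : G) * (t * (a : G)⁻¹ * t⁻¹) = 1 := congrArg Subtype.val (MonoidHom.mem_ker.1 ha)
      have h2 : t * (a : G)⁻¹ * t⁻¹ = (a : G)⁻¹ := by
        rwa [← mul_eq_one_iff_eq_inv']
      have h3 : t * (a : G) * t⁻¹ = a := by
        have := congrArg Inv.inv h2
        simpa [mul_assoc] using this
      show (a : G) * t = t * a
      calc (a : G) * t = t * (a : G) * t⁻¹ * t := by rw [h3]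
        _ = t * a := by group
  have hrange : Nat.card f.range ∣ 3 := by
    rw [← card_map_subtype f.range]
    apply hs2
    · rintro _ ⟨a, -, rfl⟩
      exact a.2
    · rintro _ ⟨_, ⟨a, rfl⟩, rfl⟩
      rw [mem_centralizer_singleton_iff]
      show (a : G) * (t * (a : G)⁻¹ * t⁻¹) * (t * τ) = t * τ * ((a : G) * (t * (a : G)⁻¹ * t⁻¹))
      have hb : (a : G) * (t * (a : G)⁻¹ * t⁻¹) ∈ Q := mul_mem a.2 (hnt _ (inv_mem a.2))
      have h1 := hinv _ hb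
      have h2 : τ * ((a : G) * (t * (a : G)⁻¹ * t⁻¹)) = ((a : G) * (t * (a : G)⁻¹ * t⁻¹))⁻¹ * τ := by
        rw [← h1]
        group
      calc (a : G) * (t * (a : G)⁻¹ * t⁻¹) * (t * τ) = (a : G) * t * (a : G)⁻¹ * τ := by group
        _ = (t * t) * (a : G) * t⁻¹ * (a : G)⁻¹ * τ := by rw [htt, one_mul, hti]
        _ = t * (((a : G) * (t * (a : G)⁻¹ * t⁻¹))⁻¹ * τ) := by group
        _ = t * τ * ((a : G) * (t * (a : G)⁻¹ * t⁻¹)) := by rw [← h2, mul_assoc t τ]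
  have h1 : Nat.card f.ker * Nat.card f.range = 27 := by
    rw [← Subgroup.index_ker, Subgroup.card_mul_index, hQ]
  have h2 := Nat.le_of_dvd (by norm_num) hker
  have h3 := Nat.le_of_dvd (by norm_num) hrange
  have h4 : Nat.card f.ker * Nat.card f.range ≤ 3 * 3 := Nat.mul_le_mul h2 h3
  omega

/-- The centralizer of `τ` in `Q` is generated by any of its nontrivial elements. -/
lemma fix_data {Q : Subgroup G} [Finite G] {τ c : G} (hQ : Nat.card Q = 27)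
    (hs : ∀ H : Subgroup G, H ≤ Q → H ≤ centralizer ({τ} : Set G) → Nat.card H ∣ 3)
    (hc : c ∈ Q) (hc1 : c ≠ 1) (hcτ : c * τ = τ * c) :
    c ^ 3 = 1 ∧ ∀ a ∈ Q, a * τ = τ * a → a = 1 ∨ a = c ∨ a = c⁻¹ := by
  have hd := hs (Q ⊓ centralizer ({τ} : Set G)) inf_le_left inf_le_right
  have hcH : c ∈ Q ⊓ centralizer ({τ} : Set G) := ⟨hc, mem_centralizer_singleton_iff.2 hcτ⟩
  have hZ : zpowers c ≤ Q ⊓ centralizer ({τ} : Set G) := (zpowers_le).2 hcH
  have h1 : orderOf c ∣ Nat.card (Q ⊓ centralizer ({τ} : Set G) : Subgroup G) :=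
    Subgroup.orderOf_dvd_natCard _ hcH
  have h2 : orderOf c ∣ 3 := h1.trans hd
  have h3 : orderOf c = 3 := by
    rcases (Nat.dvd_prime Nat.prime_three).1 h2 with h | h
    · exact absurd (orderOf_eq_one_iff.1 h) hc1
    · exact h
  have h4 : c ^ 3 = 1 := by
    rw [← h3]
    exact pow_orderOf_eq_one c
  refine ⟨h4, fun a ha hat => ?_⟩
  have h5 : zpowers c = Q ⊓ centralizer ({τ} : Set G) := by
    apply Subgroup.eq_of_le_of_card_ge hZ
    rw [Nat.card_zpowers, h3]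
    exact Nat.le_of_dvd (by norm_num) hd
  apply mem_zpowers_three h4
  rw [h5]
  exact ⟨ha, mem_centralizer_singleton_iff.2 hat⟩

/-- Commutators of a group of order `27` lie in any central subgroup of order three. -/
lemma comm_mem_zpowers [Finite G] {Q : Subgroup G} {z : G} (hQ : Nat.card Q = 27) (hz : z ∈ Q)
    (hz3 : orderOf z = 3) (hcen : ∀ a ∈ Q, a * z = z * a) {a b : G} (ha : a ∈ Q) (hb : b ∈ Q) :
    a * b * a⁻¹ * b⁻¹ ∈ zpowers z := by
  let z' : Q := ⟨z, hz⟩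
  let Z : Subgroup Q := zpowers z'
  have hz' : ∀ g : Q, g * z' = z' * g := fun g => Subtype.ext (hcen g g.2)
  haveI hZn : Z.Normal := by
    constructor
    intro n hn g
    obtain ⟨k, rfl⟩ := mem_zpowers_iff.1 hn
    have h1 : Commute g (z' ^ k) := (show Commute g z' from hz' g).zpow_right k
    rw [h1.eq]
    simpa using hn
  have hZc : Nat.card Z = 3 := by
    rw [Nat.card_zpowers, Subgroup.orderOf_mk]
    exact hz3
  have h9 : Nat.card (Q ⧸ Z) = 3 ^ 2 := by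
    have h1 := Subgroup.card_eq_card_quotient_mul_card_subgroup Z
    rw [hQ, hZc] at h1
    omega
  haveI : Fact (Nat.Prime 3) := ⟨Nat.prime_three⟩
  have hcomm := IsPGroup.commutative_of_card_eq_prime_sq (p := 3) h9
  have h1 := hcomm (QuotientGroup.mk (⟨b, hb⟩ : Q)⁻¹) (QuotientGroup.mk (⟨a, ha⟩ : Q)⁻¹)
  rw [← QuotientGroup.mk_mul, ← QuotientGroup.mk_mul, QuotientGroup.eq] at h1
  obtain ⟨k, hk⟩ := mem_zpowers_iff.1 h1
  have h2 := congrArg Subtype.val hk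
  have h3 : a * b * a⁻¹ * b⁻¹ = z ^ k := by
    rw [show ((z' ^ k : Q) : G) = z ^ k from rfl] at h2
    rw [h2]
    simp [mul_assoc]
  rw [h3]
  exact zpow_mem (mem_zpowers z) k

lemma mem_of_normalizes {Q : Subgroup G} [Finite G] (hQ : Nat.card Q = 27)
    (hG : (Nat.card G).factorization 3 = 3) {σ : G} (hσ : σ ^ 3 = 1)
    (hn : ∀ a ∈ Q, σ * a * σ⁻¹ ∈ Q) : σ ∈ Q := by
  haveI : Fact (Nat.Prime 3) := ⟨Nat.prime_three⟩
  let S : Sylow 3 G := Sylow.ofCard Q (by rw [hQ, hG]; norm_num)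
  have hSQ : (S : Subgroup G) = Q := rfl
  have hP : IsPGroup 3 (zpowers σ) := by
    intro g
    refine ⟨1, Subtype.ext ?_⟩
    obtain ⟨n, hn⟩ := mem_zpowers_iff.1 g.2
    show ((g : G)) ^ 3 ^ 1 = 1
    rw [← hn, pow_one, ← zpow_natCast, ← zpow_mul, mul_comm, zpow_mul, zpow_natCast, hσ, one_zpow]
  have hN : σ ∈ normalizer (Q : Set G) := by
    rw [mem_normalizer_iff]
    intro h
    refine ⟨hn h, fun hh => ?_⟩
    have h1 := hn _ (hn _ hh)
    have h2 : σ * (σ * (σ * h * σ⁻¹) * σ⁻¹) * σ⁻¹ = σ ^ 3 * h * (σ ^ 3)⁻¹ := by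
      rw [show σ ^ 3 = σ * σ * σ by rw [pow_succ, pow_two]]
      group
    rw [h2, hσ] at h1
    simpa using h1
  have hfix : S ∈ MulAction.fixedPoints (zpowers σ) (Sylow 3 G) := by
    rw [MulAction.mem_fixedPoints]
    intro g
    show (g : G) • S = S
    rw [Sylow.smul_eq_iff_mem_normalizer]
    exact (zpowers_le.2 hN) g.2
  have hle := (hP.sylow_mem_fixedPoints_iff (Q := S)).1 hfix
  exact hle (mem_zpowers σ)

/-- The configuration of a four-group and an element of order three. -/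
structure TUY (t u y : G) : Prop where
  t2 : t ^ 2 = 1
  u2 : u ^ 2 = 1
  tu : t * u = u * t
  y3 : y ^ 3 = 1
  y1 : y ≠ 1
  ty : t * y = y * t
  uy : u * y * u⁻¹ = y⁻¹

/-- A subgroup of order `27` centralizing `y`. -/
structure Loc (t u y : G) (Q : Subgroup G) : Prop where
  card : Nat.card Q = 27
  comm : ∀ a ∈ Q, a * y = y * a
  t_mem : ∀ a ∈ Q, t * a * t⁻¹ ∈ Q
  u_mem : ∀ a ∈ Q, u * a * u⁻¹ ∈ Q
  mem : ∀ a, a * y = y * a → a ^ 3 = 1 → a ∈ Q

lemma sq_of_prod {A B C : G} (hAB : A * B = B * A) (hAC : A * C = C * A) (hBC : B * C = C * B) :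
    (A * B * C) * (A * B⁻¹ * C⁻¹) = A ^ 2 := by
  calc (A * B * C) * (A * B⁻¹ * C⁻¹) = A * B * (C * A) * B⁻¹ * C⁻¹ := by group
    _ = A * B * (A * C) * B⁻¹ * C⁻¹ := by rw [hAC]
    _ = A * (B * A) * C * B⁻¹ * C⁻¹ := by group
    _ = A * (A * B) * C * B⁻¹ * C⁻¹ := by rw [hAB]
    _ = A * A * (B * C) * B⁻¹ * C⁻¹ := by group
    _ = A * A * (C * B) * B⁻¹ * C⁻¹ := by rw [hBC]
    _ = A * A := by group
    _ = A ^ 2 := (pow_two A).symm

lemma eq_of_sq_eq {A B : G} (hA : A ^ 3 = 1) (hB : B ^ 3 = 1) (h : A ^ 2 = B ^ 2) : A = B := by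
  have h1 : A = (A ^ 2)⁻¹ := by
    apply eq_inv_of_mul_eq_one_left
    rw [← pow_succ', hA]
  have h2 : B = (B ^ 2)⁻¹ := by
    apply eq_inv_of_mul_eq_one_left
    rw [← pow_succ', hB]
  rw [h1, h2, h]

/-- Three commuting elements of order three, separated by a four-group. -/
lemma prod_inj {t u y b₁ b₂ : G} (hy3 : orderOf y = 3) (hb₁ : orderOf b₁ = 3) (hb₂ : orderOf b₂ = 3)
    (h01 : y * b₁ = b₁ * y) (h02 : y * b₂ = b₂ * y) (h12 : b₁ * b₂ = b₂ * b₁)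
    (ht0 : t * y * t⁻¹ = y) (ht1 : t * b₁ * t⁻¹ = b₁⁻¹) (ht2 : t * b₂ * t⁻¹ = b₂⁻¹)
    (hu1 : u * b₁ * u⁻¹ = b₁) (hu2 : u * b₂ * u⁻¹ = b₂⁻¹) :
    Function.Injective (fun p : Fin 3 × Fin 3 × Fin 3 => y ^ p.1.val * b₁ ^ p.2.1.val * b₂ ^ p.2.2.val) := by
  rintro ⟨i, j, k⟩ ⟨i', j', k'⟩ h
  simp only at h
  have hp : ∀ {x : G}, orderOf x = 3 → ∀ n : ℕ, (x ^ n) ^ 3 = 1 := by
    intro x hx n
    rw [← pow_mul, mul_comm, pow_mul, ← hx, pow_orderOf_eq_one, one_pow]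
  have hinj : ∀ {x : G}, orderOf x = 3 → ∀ a b : Fin 3, x ^ a.val = x ^ b.val → a = b := by
    intro x hx a b hab
    have := pow_injOn_Iio_orderOf (x := x) (show a.val ∈ Set.Iio (orderOf x) by simp [hx])
      (show b.val ∈ Set.Iio (orderOf x) by simp [hx]) hab
    exact Fin.ext this
  -- the first coordinate
  have conj1 : ∀ n : ℕ, t * y ^ n * t⁻¹ = y ^ n := fun n => by rw [← conj_pow, ht0]
  have conj2 : ∀ n : ℕ, t * b₁ ^ n * t⁻¹ = (b₁ ^ n)⁻¹ := fun n => by rw [← conj_pow, ht1, inv_pow]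
  have conj3 : ∀ n : ℕ, t * b₂ ^ n * t⁻¹ = (b₂ ^ n)⁻¹ := fun n => by rw [← conj_pow, ht2, inv_pow]
  have conj4 : ∀ n : ℕ, u * b₁ ^ n * u⁻¹ = b₁ ^ n := fun n => by rw [← conj_pow, hu1]
  have conj5 : ∀ n : ℕ, u * b₂ ^ n * u⁻¹ = (b₂ ^ n)⁻¹ := fun n => by rw [← conj_pow, hu2, inv_pow]
  have c01 : ∀ m n : ℕ, y ^ m * b₁ ^ n = b₁ ^ n * y ^ m := fun m n =>
    ((show Commute y b₁ from h01).pow_pow m n).eq
  have c02 : ∀ m n : ℕ, y ^ m * b₂ ^ n = b₂ ^ n * y ^ m := fun m n =>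
    ((show Commute y b₂ from h02).pow_pow m n).eq
  have c12 : ∀ m n : ℕ, b₁ ^ m * b₂ ^ n = b₂ ^ n * b₁ ^ m := fun m n =>
    ((show Commute b₁ b₂ from h12).pow_pow m n).eq
  have ht' : y ^ i.val * (b₁ ^ j.val)⁻¹ * (b₂ ^ k.val)⁻¹ = y ^ i'.val * (b₁ ^ j'.val)⁻¹ * (b₂ ^ k'.val)⁻¹ := by
    have h1 := congrArg (fun g => t * g * t⁻¹) h
    rw [show t * (y ^ i.val * b₁ ^ j.val * b₂ ^ k.val) * t⁻¹ = (t * y ^ i.val * t⁻¹) * (t * b₁ ^ j.val * t⁻¹) * (t * b₂ ^ k.val * t⁻¹) by group,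
      show t * (y ^ i'.val * b₁ ^ j'.val * b₂ ^ k'.val) * t⁻¹ = (t * y ^ i'.val * t⁻¹) * (t * b₁ ^ j'.val * t⁻¹) * (t * b₂ ^ k'.val * t⁻¹) by group,
      conj1, conj1, conj2, conj2, conj3, conj3] at h1
    exact h1
  have e1 : (y ^ i.val) ^ 2 = (y ^ i'.val) ^ 2 := by
    rw [← sq_of_prod (c01 i.val j.val) (c02 i.val k.val) (c12 j.val k.val),
      ← sq_of_prod (c01 i'.val j'.val) (c02 i'.val k'.val) (c12 j'.val k'.val), h, ht']
  have e2 : y ^ i.val = y ^ i'.val := eq_of_sq_eq (hp hy3 _) (hp hy3 _) e1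
  have hii : i = i' := hinj hy3 _ _ e2
  subst hii
  have h' : b₁ ^ j.val * b₂ ^ k.val = b₁ ^ j'.val * b₂ ^ k'.val := by
    have h1 : y ^ i.val * (b₁ ^ j.val * b₂ ^ k.val) = y ^ i.val * (b₁ ^ j'.val * b₂ ^ k'.val) := by
      rw [← mul_assoc, ← mul_assoc]
      exact h
    exact mul_left_cancel h1
  have hu' : b₁ ^ j.val * (b₂ ^ k.val)⁻¹ = b₁ ^ j'.val * (b₂ ^ k'.val)⁻¹ := by
    have h1 := congrArg (fun g => u * g * u⁻¹) h'
    rw [show u * (b₁ ^ j.val * b₂ ^ k.val) * u⁻¹ = (u * b₁ ^ j.val * u⁻¹) * (u * b₂ ^ k.val * u⁻¹) by group,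
      show u * (b₁ ^ j'.val * b₂ ^ k'.val) * u⁻¹ = (u * b₁ ^ j'.val * u⁻¹) * (u * b₂ ^ k'.val * u⁻¹) by group,
      conj4, conj4, conj5, conj5] at h1
    exact h1
  have sq2 : ∀ {A C : G}, A * C = C * A → (A * C) * (A * C⁻¹) = A ^ 2 := by
    intro A C hAC
    calc (A * C) * (A * C⁻¹) = A * (C * A) * C⁻¹ := by group
      _ = A * (A * C) * C⁻¹ := by rw [hAC]
      _ = A * A := by group
      _ = A ^ 2 := (pow_two A).symm
  have e3 : (b₁ ^ j.val) ^ 2 = (b₁ ^ j'.val) ^ 2 := by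
    rw [← sq2 (c12 j.val k.val), ← sq2 (c12 j'.val k'.val), h', hu']
  have e4 : b₁ ^ j.val = b₁ ^ j'.val := eq_of_sq_eq (hp hb₁ _) (hp hb₁ _) e3
  have hjj : j = j' := hinj hb₁ _ _ e4
  subst hjj
  have e5 : b₂ ^ k.val = b₂ ^ k'.val := mul_left_cancel h'
  have hkk : k = k' := hinj hb₂ _ _ e5
  subst hkk
  rfl

/-- The main exclusion. -/
theorem no_triangle [Finite G] {t u y σ : G} {Q : Subgroup G} (hT : TUY t u y) (hL : Loc t u y Q)
    (hG : (Nat.card G).factorization 3 = 3) (hσ : σ ^ 3 = 1) (h1 : σ * t * σ⁻¹ = u)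
    (h2 : σ * u * σ⁻¹ = t * u) : ¬ (y * (σ * y * σ⁻¹) = (σ * y * σ⁻¹) * y) := by
  intro hcomm
  let S : G →* G := (MulAut.conj σ).toMonoidHom
  have hS : ∀ x, S x = σ * x * σ⁻¹ := fun x => rfl
  have hS3 : ∀ x, S (S (S x)) = x := by
    intro x
    simp only [hS]
    have : σ * (σ * (σ * x * σ⁻¹) * σ⁻¹) * σ⁻¹ = σ ^ 3 * x * (σ ^ 3)⁻¹ := by
      rw [show σ ^ 3 = σ * σ * σ by rw [pow_succ, pow_two]]
      group
    rw [this, hσ]
    simp
  have hSt : S t = u := h1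
  have hSu : S u = t * u := h2
  have huu : u * u = 1 := by rw [← pow_two, hT.u2]
  have hStu : S (t * u) = t := by
    rw [map_mul, hSt, hSu]
    calc u * (t * u) = (u * t) * u := by group
      _ = (t * u) * u := by rw [hT.tu]
      _ = t * (u * u) := by group
      _ = t := by rw [huu, mul_one]
  have hSinj : Function.Injective S := (MulAut.conj σ).injective
  haveI : Fact (Nat.Prime 3) := ⟨Nat.prime_three⟩
  have hy3 : orderOf y = 3 := orderOf_eq_prime hT.y3 hT.y1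
  have hb₁o : orderOf (S y) = 3 := by rw [orderOf_injective S hSinj, hy3]
  have hb₂o : orderOf (S (S y)) = 3 := by rw [orderOf_injective S hSinj, hb₁o]
  have hb₁3 : (S y) ^ 3 = 1 := by rw [← hb₁o]; exact pow_orderOf_eq_one _
  have hb₂3 : (S (S y)) ^ 3 = 1 := by rw [← hb₂o]; exact pow_orderOf_eq_one _
  have c01 : y * S y = S y * y := hcomm
  have c12 : S y * S (S y) = S (S y) * S y := by
    have := congrArg S c01
    rwa [map_mul, map_mul] at this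
  have c20 : S (S y) * y = y * S (S y) := by
    have := congrArg S c12
    rwa [map_mul, map_mul, hS3] at this
  have hconj : ∀ a x z : G, a * x * a⁻¹ = z → S a * S x * (S a)⁻¹ = S z := by
    intro a x z h
    rw [← h, map_mul, map_mul, map_inv]
  have r0 : t * y * t⁻¹ = y := by rw [hT.ty]; group
  have r00 : (t * u) * y * (t * u)⁻¹ = y⁻¹ := by
    calc (t * u) * y * (t * u)⁻¹ = t * (u * y * u⁻¹) * t⁻¹ := by group
      _ = t * y⁻¹ * t⁻¹ := by rw [hT.uy]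
      _ = (t * y * t⁻¹)⁻¹ := by group
      _ = y⁻¹ := by rw [r0]
  have r1 : u * S y * u⁻¹ = S y := by
    have := hconj _ _ _ r0
    rwa [hSt] at this
  have r2 : (t * u) * S y * (t * u)⁻¹ = (S y)⁻¹ := by
    have := hconj _ _ _ hT.uy
    rwa [hSu, map_inv] at this
  have r3 : t * S y * t⁻¹ = (S y)⁻¹ := by
    have := hconj _ _ _ r00
    rwa [hStu, map_inv] at this
  have r4 : (t * u) * S (S y) * (t * u)⁻¹ = S (S y) := by
    have := hconj _ _ _ r1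
    rwa [hSu] at this
  have r5 : t * S (S y) * t⁻¹ = (S (S y))⁻¹ := by
    have := hconj _ _ _ r2
    rwa [hStu, map_inv] at this
  have r6 : u * S (S y) * u⁻¹ = (S (S y))⁻¹ := by
    have := hconj _ _ _ r3
    rwa [hSt, map_inv] at this
  have hinj := prod_inj (t := t) (u := u) hy3 hb₁o hb₂o c01 c20.symm c12 r0 r3 r5 r1 r6
  have hyQ : y ∈ Q := hL.mem y rfl hT.y3
  have hb₁Q : S y ∈ Q := hL.mem _ c01.symm hb₁3
  have hb₂Q : S (S y) ∈ Q := hL.mem _ c20 hb₂3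
  let F : Fin 3 × Fin 3 × Fin 3 → Q := fun p =>
    ⟨y ^ p.1.val * (S y) ^ p.2.1.val * (S (S y)) ^ p.2.2.val,
      mul_mem (mul_mem (pow_mem hyQ _) (pow_mem hb₁Q _)) (pow_mem hb₂Q _)⟩
  have hFinj : Function.Injective F := fun p q h => hinj (congrArg Subtype.val h)
  have hFb := hFinj.bijective_of_nat_card_le (by
    rw [hL.card]
    simp [Nat.card_eq_fintype_card])
  have hnorm : ∀ a ∈ Q, σ * a * σ⁻¹ ∈ Q := by
    intro a ha
    obtain ⟨p, hp⟩ := hFb.2 ⟨a, ha⟩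
    have ha' : a = y ^ p.1.val * (S y) ^ p.2.1.val * (S (S y)) ^ p.2.2.val :=
      (congrArg Subtype.val hp).symm
    show S a ∈ Q
    rw [ha', map_mul, map_mul, map_pow, map_pow, map_pow, hS3]
    exact mul_mem (mul_mem (pow_mem hb₁Q _) (pow_mem hb₂Q _)) (pow_mem hyQ _)
  have hσQ : σ ∈ Q := mem_of_normalizes hL.card hG hσ hnorm
  have h5 : S y = y := by
    show σ * y * σ⁻¹ = y
    rw [hL.comm σ hσQ]
    group
  rw [h5] at r1
  rw [hT.uy] at r1
  apply hT.y1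
  have h6 : y ^ 2 = 1 := by
    rw [pow_two]
    nth_rw 1 [← r1]
    exact inv_mul_cancel y
  have h7 : y ^ 3 = y ^ 2 * y := pow_succ y 2
  rw [hT.y3, h6, one_mul] at h7
  exact h7.symm

end Cfsg.Agent.Lib.GL23Rec
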