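import Mathlib
import Cfsg.Agent.Lib.Steinberg.PresSLn
import Cfsg.Agent.Lib.L33Rec.Data

/-!
# Six root elements of order three satisfying the Steinberg relations of `SL₃(3)`

A group of order `5616` containing such a family is `SL₃(3)`.
-/

set_option autoImplicit false

namespace Cfsg.Agent.Lib.GL23Rec

open Cfsg.Agent.Lib.Steinberg.Family Cfsg.Agent.Lib.Steinberg.LinearStem
open Cfsg.Agent.Lib.Steinberg.PresSLn

universe u

section Hom

/-- A Steinberg family gives a homomorphism from `SL_N`. -/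
theorem exists_hom_family {N : ℕ} (hN : 3 ≤ N) {K G : Type*} [Field K] [Finite K] [Group G]
    (Y : SFam (Fin N) K G) :
    ∃ π : Matrix.SpecialLinearGroup (Fin N) K →* G,
      ∀ i j, i ≠ j → ∀ t, π ((X (Fin N) K).y i j t) = Y.y i j t := by
  obtain ⟨e, he⟩ := steinberg_SLn (K := K) N hN
  let f : Ix N × K → G := fun p => Y.y p.1.1.1 p.1.1.2 p.2
  have hf : ∀ r ∈ rels K N, FreeGroup.lift f r = 1 := by
    rintro r ((⟨a, t, u, rfl⟩ | ⟨a, b, t, u, h1, h2, rfl⟩) | ⟨a, b, h1, t, u, h2, rfl⟩)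
    · simp only [map_mul, map_inv, FreeGroup.lift_apply_of, f]
      rw [Y.add _ _ a.2]
      group
    · simp only [map_mul, map_inv, FreeGroup.lift_apply_of, f]
      rw [Y.comm' _ _ _ _ a.2 b.2 h2 h1]
      group
    · simp only [map_mul, map_inv, FreeGroup.lift_apply_of, f]
      obtain ⟨⟨a1, a2⟩, ha⟩ := a
      obtain ⟨⟨b1, b2⟩, hb⟩ := b
      simp only at h1 h2 ha hb ⊢
      subst h2
      rw [Y.comm _ _ _ ha hb h1]
      group
  refine ⟨(PresentedGroup.toGroup hf).comp e.symm.toMonoidHom, fun i j hij t => ?_⟩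
  have h1 : (X (Fin N) K).y i j t = e (PresentedGroup.of (⟨(i, j), hij⟩, t)) := by
    apply Subtype.ext
    rw [he]
    rw [X_y hij]
    rfl
  rw [h1]
  simp only [MonoidHom.comp_apply, MulEquiv.coe_toMonoidHom, MulEquiv.symm_apply_apply]
  rw [PresentedGroup.toGroup.of]

end Hom

variable {G : Type u} [Group G]

/-- Bilinearity of commutators with central value. -/
lemma comm_pow_pow {a b c : G} (h : a * b * a⁻¹ * b⁻¹ = c) (hca : c * a = a * c) (hcb : c * b = b * c)
    (m n : ℕ) : a ^ m * b ^ n * (a ^ m)⁻¹ * (b ^ n)⁻¹ = c ^ (m * n) := by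
  have h1 : a * b * a⁻¹ = c * b := by
    rw [← h]
    group
  have h2 : ∀ m : ℕ, a ^ m * b * (a ^ m)⁻¹ = c ^ m * b := by
    intro m
    induction m with
    | zero => simp
    | succ m ih =>
      have hc : Commute a (c ^ m) := ((show Commute c a from hca).pow_left m).symm
      calc a ^ (m + 1) * b * (a ^ (m + 1))⁻¹ = a * (a ^ m * b * (a ^ m)⁻¹) * a⁻¹ := by
            rw [pow_succ' a m]
            group
        _ = a * (c ^ m * b) * a⁻¹ := by rw [ih]
        _ = (a * c ^ m) * b * a⁻¹ := by group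
        _ = (c ^ m * a) * b * a⁻¹ := by rw [hc.eq]
        _ = c ^ m * (a * b * a⁻¹) := by group
        _ = c ^ m * (c * b) := by rw [h1]
        _ = c ^ (m + 1) * b := by rw [pow_succ]; group
  have h3 : a ^ m * b ^ n * (a ^ m)⁻¹ = c ^ (m * n) * b ^ n := by
    rw [← conj_pow, h2]
    have hcm : Commute (c ^ m) b := (show Commute c b from hcb).pow_left m
    rw [hcm.mul_pow, pow_mul]
  rw [h3]
  group

lemma comm_inv_inv {a b c : G} (h : a * b * a⁻¹ * b⁻¹ = c) (hca : c * a = a * c) (hcb : c * b = b * c) :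
    a⁻¹ * b⁻¹ * a⁻¹⁻¹ * b⁻¹⁻¹ = c := by
  have h1 : a * b = c * b * a := by
    rw [← h]
    group
  simp only [inv_inv]
  calc a⁻¹ * b⁻¹ * a * b = a⁻¹ * b⁻¹ * (a * b) := by group
    _ = a⁻¹ * b⁻¹ * (c * b * a) := by rw [h1]
    _ = a⁻¹ * (b⁻¹ * (c * b)) * a := by group
    _ = a⁻¹ * (b⁻¹ * (b * c)) * a := by rw [hcb]
    _ = a⁻¹ * c * a := by group
    _ = a⁻¹ * (c * a) := by group
    _ = a⁻¹ * (a * c) := by rw [hca]
    _ = c := by group

/-- The relations among six elements. -/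
structure Rel6 (x12 x13 x21 x23 x31 x32 : G) : Prop where
  c12 : x12 ^ 3 = 1
  c13 : x13 ^ 3 = 1
  c21 : x21 ^ 3 = 1
  c23 : x23 ^ 3 = 1
  c31 : x31 ^ 3 = 1
  c32 : x32 ^ 3 = 1
  r1 : x12 * x23 * x12⁻¹ * x23⁻¹ = x13
  r2 : x23 * x31 * x23⁻¹ * x31⁻¹ = x21
  r3 : x31 * x12 * x31⁻¹ * x12⁻¹ = x32
  r4 : x32 * x21 * x32⁻¹ * x21⁻¹ = x31
  r5 : x13 * x32 * x13⁻¹ * x32⁻¹ = x12
  r6 : x21 * x13 * x21⁻¹ * x13⁻¹ = x23
  p1 : x13 * x12 = x12 * x13
  p2 : x13 * x23 = x23 * x13
  p3 : x21 * x23 = x23 * x21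
  p4 : x21 * x31 = x31 * x21
  p5 : x32 * x31 = x31 * x32
  p6 : x32 * x12 = x12 * x32

/-- The matrix of root elements. -/
def xMat (x12 x13 x21 x23 x31 x32 : G) : Fin 3 → Fin 3 → G :=
  ![![1, x12, x13], ![x21, 1, x23], ![x31, x32, 1]]

section

variable {x12 x13 x21 x23 x31 x32 : G} (h : Rel6 x12 x13 x21 x23 x31 x32)
include h

lemma xMat_cube (i j : Fin 3) : (xMat x12 x13 x21 x23 x31 x32 i j) ^ 3 = 1 := by
  fin_cases i <;> fin_cases j
  · exact one_pow 3
  · exact h.c12
  · exact h.c13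
  · exact h.c21
  · exact one_pow 3
  · exact h.c23
  · exact h.c31
  · exact h.c32
  · exact one_pow 3

lemma xMat_comm (i j k l : Fin 3) (hij : i ≠ j) (hkl : k ≠ l) (hjk : j ≠ k) (hil : i ≠ l) :
    xMat x12 x13 x21 x23 x31 x32 i j * xMat x12 x13 x21 x23 x31 x32 k l =
      xMat x12 x13 x21 x23 x31 x32 k l * xMat x12 x13 x21 x23 x31 x32 i j := by
  have e1 := h.p1
  have e2 := h.p2
  have e3 := h.p3
  have e4 := h.p4
  have e5 := h.p5
  have e6 := h.p6
  fin_cases i <;> fin_cases j <;> fin_cases k <;> fin_cases l <;>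
    first
      | exact absurd rfl hij
      | exact absurd rfl hkl
      | exact absurd rfl hjk
      | exact absurd rfl hil
      | exact rfl
      | exact e1
      | exact e1.symm
      | exact e2
      | exact e2.symm
      | exact e3
      | exact e3.symm
      | exact e4
      | exact e4.symm
      | exact e5
      | exact e5.symm
      | exact e6
      | exact e6.symm

lemma xMat_rel (i j k : Fin 3) (hij : i ≠ j) (hjk : j ≠ k) (hik : i ≠ k) :
    xMat x12 x13 x21 x23 x31 x32 i j * xMat x12 x13 x21 x23 x31 x32 j k *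
      (xMat x12 x13 x21 x23 x31 x32 i j)⁻¹ * (xMat x12 x13 x21 x23 x31 x32 j k)⁻¹ =
      xMat x12 x13 x21 x23 x31 x32 i k := by
  have e1 := h.r1
  have e2 := h.r2
  have e3 := h.r3
  have e4 := h.r4
  have e5 := h.r5
  have e6 := h.r6
  fin_cases i <;> fin_cases j <;> fin_cases k <;>
    first
      | exact absurd rfl hij
      | exact absurd rfl hjk
      | exact absurd rfl hik
      | exact e1
      | exact e2
      | exact e3
      | exact e4
      | exact e5
      | exact e6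

omit h in
lemma pow_val_add {x : G} (hx : x ^ 3 = 1) (s t : ZMod 3) : x ^ (s + t).val = x ^ s.val * x ^ t.val := by
  rw [ZMod.val_add, ← pow_add]
  exact (pow_eq_pow_mod _ hx).symm

/-- The Steinberg family. -/
def famOf : SFam (Fin 3) (ZMod 3) G where
  y i j s := (xMat x12 x13 x21 x23 x31 x32 i j) ^ s.val
  add i j _ s t := pow_val_add (xMat_cube h i j) s t
  comm i j k hij hjk hik s t := by
    have h1 := comm_pow_pow (xMat_rel h i j k hij hjk hik)
      (xMat_comm h i k i j hik hij hik.symm hij) (xMat_comm h i k j k hik hjk hjk.symm hik) s.val t.val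
    rw [h1, ZMod.val_mul]
    exact pow_eq_pow_mod _ (xMat_cube h i k)
  comm' i j k l hij hkl hjk hil s t :=
    ((show Commute _ _ from xMat_comm h i j k l hij hkl hjk hil).pow_pow _ _).eq

end

/-- A group of order `5616` with such a family is `SL₃(3)`. -/
theorem iso_of_rel6 [Finite G] (hG : Nat.card G = 5616) {x12 x13 x21 x23 x31 x32 : G}
    (h : Rel6 x12 x13 x21 x23 x31 x32) (hne : x13 ≠ 1) : Nonempty (G ≃* Cfsg.Agent.Lib.L33Rec.SL3) := by
  obtain ⟨π, hπ⟩ := exists_hom_family (N := 3) le_rfl (famOf h)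
  have hπ1 : π ((X (Fin 3) (ZMod 3)).y 0 2 1) = x13 := by
    rw [hπ 0 2 (by decide) 1]
    show x13 ^ (1 : ZMod 3).val = x13
    rw [ZMod.val_one, pow_one]
  haveI := Cfsg.Agent.Lib.L33Rec.simpleSL3
  rcases IsSimpleGroup.eq_bot_or_eq_top_of_normal π.ker inferInstance with hk | hk
  · have hinj := (MonoidHom.ker_eq_bot_iff π).1 hk
    have hb := hinj.bijective_of_nat_card_le (by rw [hG, Cfsg.Agent.Lib.L33Rec.card_SL3'])
    exact ⟨(MulEquiv.ofBijective π hb).symm⟩
  · exfalso
    have h1 : (X (Fin 3) (ZMod 3)).y 0 2 1 ∈ π.ker := by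
      rw [hk]
      exact Subgroup.mem_top _
    apply hne
    rw [← hπ1]
    exact h1

/-- The recognition, with an automorphism of order three cycling the root subgroups. -/
theorem iso_of_S [Finite G] (hG : Nat.card G = 5616) (S : G →* G) (hS3 : ∀ x, S (S (S x)) = x)
    {y w a₀ b₀ : G} (hy : y ^ 3 = 1) (hw : w ^ 3 = 1) (hy1 : y ≠ 1)
    (c1 : y * S w = S w * y) (c2 : y * S (S w) = S (S w) * y)
    (ha : a₀ = y ∨ a₀ = y⁻¹) (hb : b₀ = w ∨ b₀ = w⁻¹)
    (hA : S w * S (S w) * (S w)⁻¹ * (S (S w))⁻¹ = a₀)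
    (hB : S (S y) * S y * (S (S y))⁻¹ * (S y)⁻¹ = b₀) : Nonempty (G ≃* Cfsg.Agent.Lib.L33Rec.SL3) := by
  have c3 : S (S y) * w = w * S (S y) := by
    have := congrArg S (congrArg S c1)
    simpa only [map_mul, hS3] using this
  have c4 : S y * w = w * S y := by
    have := congrArg S c2
    simpa only [map_mul, hS3] using this
  -- `a₀` commutes with the images of `w`
  have ca1 : a₀ * S w = S w * a₀ := by
    rcases ha with rfl | rfl
    · exact c1
    · exact ((show Commute y (S w) from c1).inv_left).eq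
  have ca2 : a₀ * S (S w) = S (S w) * a₀ := by
    rcases ha with rfl | rfl
    · exact c2
    · exact ((show Commute y (S (S w)) from c2).inv_left).eq
  have cb1 : b₀ * S y = S y * b₀ := by
    rcases hb with rfl | rfl
    · exact c4.symm
    · exact ((show Commute w (S y) from c4.symm).inv_left).eq
  have cb2 : b₀ * S (S y) = S (S y) * b₀ := by
    rcases hb with rfl | rfl
    · exact c3.symm
    · exact ((show Commute w (S (S y)) from c3.symm).inv_left).eq
  have key1 : S b₀ * S (S b₀) * (S b₀)⁻¹ * (S (S b₀))⁻¹ = a₀ := by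
    rcases hb with rfl | rfl
    · exact hA
    · simp only [map_inv]
      exact comm_inv_inv hA ca1 ca2
  have key2 : S (S a₀) * S a₀ * (S (S a₀))⁻¹ * (S a₀)⁻¹ = b₀ := by
    rcases ha with rfl | rfl
    · exact hB
    · simp only [map_inv]
      exact comm_inv_inv hB cb2 cb1
  have p1 : a₀ * S b₀ = S b₀ * a₀ := by
    rcases hb with rfl | rfl
    · exact ca1
    · rw [map_inv]
      exact ((show Commute a₀ (S w) from ca1).inv_right).eq
  have p2 : a₀ * S (S b₀) = S (S b₀) * a₀ := by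
    rcases hb with rfl | rfl
    · exact ca2
    · rw [map_inv, map_inv]
      exact ((show Commute a₀ (S (S w)) from ca2).inv_right).eq
  have p3 : S a₀ * S (S b₀) = S (S b₀) * S a₀ := by
    have := congrArg S p1
    simpa only [map_mul] using this
  have p4 : S a₀ * b₀ = b₀ * S a₀ := by
    have := congrArg S p2
    simpa only [map_mul, hS3] using this
  have p5 : S (S a₀) * b₀ = b₀ * S (S a₀) := by
    have := congrArg S p3
    simpa only [map_mul, hS3] using this
  have p6 : S (S a₀) * S b₀ = S b₀ * S (S a₀) := by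
    have := congrArg S p4
    simpa only [map_mul] using this
  have r2 : S (S b₀) * b₀ * (S (S b₀))⁻¹ * b₀⁻¹ = S a₀ := by
    have := congrArg S key1
    simpa only [map_mul, map_inv, hS3] using this
  have r3 : b₀ * S b₀ * b₀⁻¹ * (S b₀)⁻¹ = S (S a₀) := by
    have := congrArg S r2
    simpa only [map_mul, map_inv, hS3] using this
  have r5 : a₀ * S (S a₀) * a₀⁻¹ * (S (S a₀))⁻¹ = S b₀ := by
    have := congrArg S key2
    simpa only [map_mul, map_inv, hS3] using this
  have r6 : S a₀ * a₀ * (S a₀)⁻¹ * a₀⁻¹ = S (S b₀) := by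
    have := congrArg S r5
    simpa only [map_mul, map_inv, hS3] using this
  have ha3 : a₀ ^ 3 = 1 := by
    rcases ha with rfl | rfl
    · exact hy
    · rw [inv_pow, hy, inv_one]
  have hb3 : b₀ ^ 3 = 1 := by
    rcases hb with rfl | rfl
    · exact hw
    · rw [inv_pow, hw, inv_one]
  have hS1 : ∀ x : G, x ^ 3 = 1 → (S x) ^ 3 = 1 := by
    intro x hx
    rw [← map_pow, hx, map_one]
  have ha1 : a₀ ≠ 1 := by
    rcases ha with rfl | rfl
    · exact hy1
    · exact inv_ne_one.2 hy1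
  refine iso_of_rel6 hG (x12 := S b₀) (x13 := a₀) (x21 := S a₀) (x23 := S (S b₀)) (x31 := b₀)
    (x32 := S (S a₀)) ⟨hS1 _ hb3, ha3, hS1 _ ha3, hS1 _ (hS1 _ hb3), hb3, hS1 _ (hS1 _ ha3), key1, r2, r3,
      key2, r5, r6, p1, p2, p3, p4, p5, p6⟩ ha1

end Cfsg.Agent.Lib.GL23Rec
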