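import Mathlib
import Cfsg.Agent.Lib.Gross.GL23Group
import Cfsg.Agent.Lib.Transfer.IndexTwo
import Cfsg.Prelude.Def_Transfer

/-!
# Involution centralizer `GL(2,3)`: the group is simple

If `C_G(t) ≃ GL(2,3)` and `G` has no normal subgroup of index two then all involutions are
conjugate and `G` is simple.
-/

set_option autoImplicit false

namespace Cfsg.Agent.Lib.GL23Rec

open Subgroup Cfsg.Agent.Lib.Gross.GL23Table Cfsg.Agent.Lib.Gross.GL23Group Cfsg

universe u

/-- Lower unipotent. -/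
def x₁ : GL0 := ⟨!![1, 0; 1, 1], !![1, 0; 2, 1], by decide +kernel, by decide +kernel⟩
/-- A reflection. -/
def d₀ : GL0 := ⟨!![1, 0; 0, 2], !![1, 0; 0, 2], by decide +kernel, by decide +kernel⟩
/-- The swap. -/
def s₀ : GL0 := ⟨!![0, 1; 1, 0], !![0, 1; 1, 0], by decide +kernel, by decide +kernel⟩

/-- Facts on a general element of `GL(2,3)`. -/
def Good2 (g : GL0) : Prop :=
  (g ^ 3 = 1 → g ≠ 1 → ∃ h : GL0, h * x₀ * h⁻¹ = g) ∧
  (g ^ 3 = 1 → g ≠ 1 → (d₀ * g * d₀⁻¹ = g ∨ d₀ * g * d₀⁻¹ = g⁻¹) → g = x₀ ∨ g = x₀⁻¹ ∨ g = x₁ ∨ g = x₁⁻¹) ∧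
  (g * x₀ = x₀ * g → g = 1 ∨ g = x₀ ∨ g = x₀⁻¹ ∨ g = c₀ ∨ g = c₀ * x₀ ∨ g = c₀ * x₀⁻¹) ∧
  (g * d₀ = d₀ * g → g ^ 2 = 1) ∧
  (g ^ 2 = 1 → g ≠ 1 → g ≠ c₀ → ∃ h : GL0, h * d₀ * h⁻¹ = g) ∧
  (g ^ 27 = 1 → g ^ 3 = 1) ∧
  (g ^ 3 = 1 ∨ ∃ k : Fin 9, g ^ k.val ≠ 1 ∧ (g ^ k.val) ^ 2 = 1) ∧
  (∃ i j k l : Fin 3, ∃ m : Fin 2, g = x₀ ^ i.val * x₁ ^ j.val * x₀ ^ k.val * x₁ ^ l.val * d₀ ^ m.val)

set_option synthInstance.maxHeartbeats 400000 in
set_option synthInstance.maxSize 1000 in
instance : DecidablePred Good2 := fun g => by unfold Good2; infer_instance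

theorem table2 : ∀ g, Good2 g := by decide +kernel

/-- Facts on the centralizer of `x₀`. -/
def Good3 (g : GL0) : Prop :=
  (g * x₀ = x₀ * g → g ^ 6 = 1) ∧ (g * x₀ = x₀ * g → g ^ 2 = 1 → g = 1 ∨ g = c₀) ∧
  (g * x₀ = x₀ * g → g ^ 27 = 1 → g = 1 ∨ g = x₀ ∨ g = x₀⁻¹)

set_option synthInstance.maxHeartbeats 400000 in
set_option synthInstance.maxSize 1000 in
instance : DecidablePred Good3 := fun g => by unfold Good3; infer_instance

theorem table3 : ∀ g, Good3 g := by decide +kernel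

theorem x₀_cube : x₀ ^ 3 = 1 := by decide +kernel
theorem x₁_cube : x₁ ^ 3 = 1 := by decide +kernel
theorem x₀_ne : x₀ ≠ 1 := by decide +kernel
theorem x₁_ne : x₁ ≠ 1 := by decide +kernel
theorem d_x₀ : d₀ * x₀ * d₀⁻¹ = x₀⁻¹ := by decide +kernel
theorem d_x₁ : d₀ * x₁ * d₀⁻¹ = x₁⁻¹ := by decide +kernel
theorem s_c : s₀ * c₀ * s₀⁻¹ = c₀ := by decide +kernel
theorem s_d : s₀ * d₀ * s₀⁻¹ = c₀ * d₀ := by decide +kernel
theorem s_x : s₀ * x₀ * s₀⁻¹ = x₁ := by decide +kernel
theorem d_sq : d₀ ^ 2 = 1 := by decide +kernel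
theorem d_ne : d₀ ≠ 1 := by decide +kernel
theorem d_ne_c : d₀ ≠ c₀ := by decide +kernel
theorem cd_sq : (c₀ * d₀) ^ 2 = 1 := by decide +kernel
theorem cd_ne : c₀ * d₀ ≠ 1 := by decide +kernel
theorem cd_ne_c : c₀ * d₀ ≠ c₀ := by decide +kernel
theorem c_d : c₀ * d₀ = d₀ * c₀ := by decide +kernel
theorem xx_sq : (x₀ * x₁) ^ 2 = c₀ := by decide +kernel
theorem comm_x₀ : d₀ * (x₀ * d₀⁻¹ * x₀⁻¹) = x₀ := by decide +kernel
theorem comm_x₁ : d₀ * (x₁ * d₀⁻¹ * x₁⁻¹) = x₁ := by decide +kernel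
theorem w_invol : ∀ k : Fin 8, (w₀ ^ k.val) ^ 2 = 1 → w₀ ^ k.val ≠ 1 → w₀ ^ k.val = c₀ := by decide +kernel

variable {G : Type u} [Group G] {t : G}

/-- No normal subgroup of index two. -/
theorem no_index_two (hO : Cfsg.pResidual 2 G = ⊤) (N : Subgroup G) (hN : N.Normal) : N.index ≠ 2 := by
  intro h2
  have hle : Cfsg.pResidual 2 G ≤ N := by
    unfold Cfsg.pResidual
    rw [Subgroup.closure_le]
    intro g hg
    have hc : Nat.Coprime (orderOf g) 2 := hg
    have hodd : Odd (orderOf g) := by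
      rcases Nat.even_or_odd (orderOf g) with he | ho
      · exfalso
        have := Nat.Coprime.eq_one_of_dvd hc.symm he.two_dvd
        norm_num at this
      · exact ho
    obtain ⟨k, hk⟩ := hodd
    have hsq : g ^ 2 ∈ N := Subgroup.sq_mem_of_index_two h2 g
    have h1 : g = (g ^ 2) ^ (k + 1) := by
      rw [← pow_mul]
      have : 2 * (k + 1) = orderOf g + 1 := by omega
      rw [this, pow_succ, pow_orderOf_eq_one, one_mul]
    rw [SetLike.mem_coe, h1]
    exact pow_mem hsq _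
  rw [hO] at hle
  have : N = ⊤ := top_le_iff.1 hle
  rw [this, Subgroup.index_top] at h2
  omega

section main

variable [Finite G] (e : centralizer ({t} : Set G) ≃* GL0) (ht : orderOf t = 2)
include ht e

theorem all_conj' (hno : ∀ N : Subgroup G, N.Normal → N.index ≠ 2) {x : G} (hx : x ^ 2 = 1) (hx1 : x ≠ 1) : IsConj x t := by
  classical
  by_contra hc
  haveI : Fact (Nat.Prime 2) := ⟨Nat.prime_two⟩
  have hwp : IsPGroup 2 (zpowers (phi e w₀)) :=
    IsPGroup.of_card (n := 3) (by rw [Nat.card_zpowers, orderOf_w]; norm_num)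
  obtain ⟨P, hP⟩ := hwp.exists_le_sylow
  have hwP : phi e w₀ ∈ P := hP (mem_zpowers _)
  have hPC := sylow_le_centralizer e ht P hwP
  let ψ : (P : Subgroup G) →* (ZMod 3)ˣ :=
    (Matrix.GeneralLinearGroup.det).comp (e.toMonoidHom.comp (inclusion hPC))
  have hψw : ψ ⟨phi e w₀, hwP⟩ ≠ 1 := by
    intro h
    have h1 : e ((inclusion hPC) ⟨phi e w₀, hwP⟩) = w₀ := by
      apply phi_inj e
      rw [phi_e]
      rfl
    have h2 : Matrix.GeneralLinearGroup.det w₀ = 1 := by
      rw [← h1]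
      exact h
    apply det_w
    have h3 := congrArg Units.val h2
    rw [Matrix.GeneralLinearGroup.val_det_apply, Matrix.det_fin_two] at h3
    exact h3
  have hrange : ψ.range = ⊤ := by
    have hcard : Nat.card (ZMod 3)ˣ = 2 := by
      rw [Nat.card_eq_fintype_card, ZMod.card_units_eq_totient]
      rfl
    haveI : Fact (Nat.card (ZMod 3)ˣ).Prime := ⟨by rw [hcard]; exact Nat.prime_two⟩
    rcases eq_bot_or_eq_top_of_prime_card ψ.range with h | h
    · exfalso
      apply hψw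
      have : ψ ⟨phi e w₀, hwP⟩ ∈ ψ.range := ⟨_, rfl⟩
      rw [h] at this
      exact this
    · exact h
  have hindex : ψ.ker.index = 2 := by
    rw [index_ker, hrange, Nat.card_congr topEquiv.toEquiv, Nat.card_eq_fintype_card,
      ZMod.card_units_eq_totient]
    rfl
  let M : Subgroup G := ψ.ker.map (P : Subgroup G).subtype
  have hM : M.relIndex (P : Subgroup G) = 2 := by
    have h1 : M.subgroupOf (P : Subgroup G) = ψ.ker :=
      comap_map_eq_self_of_injective (subtype_injective _) _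
    rw [relIndex, h1, hindex]
  have hodd : Odd (P : Subgroup G).index := by
    have := P.not_dvd_index
    exact Nat.odd_iff.2 (by omega)
  have h1' : ∀ g : G, g⁻¹ * x * g ∈ (P : Subgroup G) → g⁻¹ * x * g ∉ M := by
    intro g hg hgM
    obtain ⟨y, hy, hye⟩ := hgM
    have hyC : (y : G) * t = t * (y : G) := mem_centralizer_singleton_iff.1 (hPC y.2)
    obtain ⟨g', hg'⟩ := exists_phi e hyC
    have hyv : (y : G) = g⁻¹ * x * g := hye
    have hsq : (y : G) ^ 2 = 1 := by
      rw [hyv, show (g⁻¹ * x * g) = g⁻¹ * x * g⁻¹⁻¹ by group, conj_pow, hx]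
      group
    have hg'sq : g' ^ 2 = 1 := by
      apply phi_inj e
      rw [map_pow, hg', hsq, map_one]
    have hdet : g'.1 0 0 * g'.1 1 1 - g'.1 0 1 * g'.1 1 0 = 1 := by
      have h1 : ψ y = 1 := hy
      have h2 : e ((inclusion hPC) y) = g' := by
        apply phi_inj e
        rw [phi_e, hg']
        rfl
      have h3 : Matrix.GeneralLinearGroup.det g' = 1 := by
        rw [← h2]
        exact h1
      have h4 := congrArg Units.val h3
      rw [Matrix.GeneralLinearGroup.val_det_apply, Matrix.det_fin_two] at h4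
      exact h4
    rcases (table g').2.2.2.1 hg'sq hdet with h | h
    · apply hx1
      rw [h, map_one] at hg'
      have h5 : g⁻¹ * x * g = 1 := by rw [← hyv, ← hg']
      calc x = g * (g⁻¹ * x * g) * g⁻¹ := by group
        _ = 1 := by rw [h5]; group
    · apply hc
      rw [h, phi_c e ht] at hg'
      refine isConj_iff.2 ⟨g⁻¹, ?_⟩
      rw [inv_inv, hg', hyv]
  have h2' : ∀ (k : ℕ), 2 ≤ k → k ∣ 2 ^ 1 → ∀ g : G, g⁻¹ * x ^ k * g ∈ (P : Subgroup G) →
      g⁻¹ * x ^ k * g ∈ M := by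
    intro k hk hk2 g _
    have hk' : k = 2 := by
      have := Nat.le_of_dvd (by norm_num) hk2
      omega
    rw [hk', hx]
    simp only [mul_one, inv_mul_cancel]
    exact one_mem _
  obtain ⟨N, hNn, hN2, -⟩ := Cfsg.Agent.Lib.Transfer.IndexTwo.exists_normal_index_two_of_relIndex
    (P : Subgroup G) hodd M hM x 1 (by simpa using hx) h1' h2'
  exact hno N hNn hN2

/-- The simple group. -/
theorem simple (hno : ∀ N : Subgroup G, N.Normal → N.index ≠ 2) : IsSimpleGroup G := by
  classical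
  have ht1 : t ≠ 1 := by
    intro h
    rw [h, orderOf_one] at ht
    norm_num at ht
  haveI : Nontrivial G := ⟨⟨t, 1, ht1⟩⟩
  refine ⟨fun N hN => ?_⟩
  by_cases hinv : ∃ i ∈ N, i ^ 2 = 1 ∧ i ≠ 1
  · right
    obtain ⟨i, hi, hi2, hi1⟩ := hinv
    have hall : ∀ x : G, x ^ 2 = 1 → x ≠ 1 → x ∈ N := by
      intro x hx hx1
      have h1 := all_conj' e ht hno hx hx1
      have h2 := all_conj' e ht hno hi2 hi1
      obtain ⟨c, hc⟩ := isConj_iff.1 (h2.trans h1.symm)
      rw [← hc]
      exact hN.conj_mem i hi c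
    have hd : phi e d₀ ∈ N :=
      hall _ (by rw [← map_pow, d_sq, map_one]) (fun h => d_ne (phi_inj e (by rw [h, map_one])))
    have hx0 : phi e x₀ ∈ N := by
      have h1 : phi e x₀ = phi e d₀ * (phi e x₀ * (phi e d₀)⁻¹ * (phi e x₀)⁻¹) := by
        rw [← map_inv, ← map_inv, ← map_mul, ← map_mul, ← map_mul, comm_x₀]
      rw [h1]
      exact mul_mem hd (by
        have := hN.conj_mem _ (inv_mem hd) (phi e x₀)
        exact this)
    have hx1 : phi e x₁ ∈ N := by
      have h1 : phi e x₁ = phi e d₀ * (phi e x₁ * (phi e d₀)⁻¹ * (phi e x₁)⁻¹) := by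
        rw [← map_inv, ← map_inv, ← map_mul, ← map_mul, ← map_mul, comm_x₁]
      rw [h1]
      exact mul_mem hd (by
        have := hN.conj_mem _ (inv_mem hd) (phi e x₁)
        exact this)
    have hall2 : ∀ g : GL0, phi e g ∈ N := by
      intro g
      obtain ⟨i, j, k, l, m, hg⟩ := (table2 g).2.2.2.2.2.2.2
      rw [hg]
      simp only [map_mul, map_pow]
      exact mul_mem (mul_mem (mul_mem (mul_mem (pow_mem hx0 _) (pow_mem hx1 _)) (pow_mem hx0 _))
        (pow_mem hx1 _)) (pow_mem hd _)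
    have hCN : centralizer ({t} : Set G) ≤ N := by
      intro a ha
      obtain ⟨g, rfl⟩ := exists_phi e (mem_centralizer_singleton_iff.1 ha)
      exact hall2 g
    haveI : Fact (Nat.Prime 2) := ⟨Nat.prime_two⟩
    have hwp : IsPGroup 2 (zpowers (phi e w₀)) :=
      IsPGroup.of_card (n := 3) (by rw [Nat.card_zpowers, orderOf_w]; norm_num)
    obtain ⟨P, hP⟩ := hwp.exists_le_sylow
    have hwP : phi e w₀ ∈ P := hP (mem_zpowers _)
    have hPC := sylow_le_centralizer e ht P hwP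
    have htP : t ∈ P := by
      rw [← phi_w4 e ht]
      exact pow_mem hwP _
    have hnorm : normalizer (P : Set G) ≤ N := by
      intro g hg
      apply hCN
      rw [mem_centralizer_singleton_iff]
      have hgt : g * t * g⁻¹ ∈ (P : Subgroup G) := (mem_normalizer_iff.1 hg t).1 htP
      have hcomm : (g * t * g⁻¹) * phi e w₀ = phi e w₀ * (g * t * g⁻¹) := by
        have hw' : g⁻¹ * phi e w₀ * g ∈ (P : Subgroup G) := by
          have := (mem_normalizer_iff.1 (inv_mem hg) (phi e w₀)).1 hwP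
          simpa using this
        have h1 := mem_centralizer_singleton_iff.1 (hPC hw')
        calc (g * t * g⁻¹) * phi e w₀ = g * (t * (g⁻¹ * phi e w₀ * g)) * g⁻¹ := by group
          _ = g * ((g⁻¹ * phi e w₀ * g) * t) * g⁻¹ := by rw [h1]
          _ = phi e w₀ * (g * t * g⁻¹) := by group
      obtain ⟨k, hk⟩ := exists_pow_of_comm_y e ht ((show Commute _ _ from hcomm).pow_right 2).eq
      have hsq : (g * t * g⁻¹) ^ 2 = 1 := by
        rw [conj_pow, t_sq ht]
        group
      have hne : g * t * g⁻¹ ≠ 1 := by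
        intro h
        apply ht1
        have := conj_eq_one_iff.1 h
        exact this
      have hk2 : (w₀ ^ k.val) ^ 2 = 1 := by
        apply phi_inj e
        rw [map_pow, ← hk, hsq, map_one]
      have hk1 : w₀ ^ k.val ≠ 1 := by
        intro h
        apply hne
        rw [hk, h, map_one]
      have h3 := w_invol k hk2 hk1
      have h4 : g * t * g⁻¹ = t := by
        rw [hk, h3, phi_c e ht]
      calc g * t = g * t * g⁻¹ * g := by group
        _ = t * g := by rw [h4]
    have hsup := Sylow.normalizer_sup_eq_top' (N := N) P (hPC.trans hCN)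
    rw [sup_eq_right.2 hnorm] at hsup
    exact hsup
  · left
    have hni : ∀ i ∈ N, i ^ 2 = 1 → i = 1 := by
      intro i hi hi2
      by_contra h
      exact hinv ⟨i, hi, hi2, h⟩
    have hfix : ∀ a ∈ N, a * t = t * a → a = 1 := by
      intro a ha hat
      obtain ⟨g, rfl⟩ := exists_phi e hat
      by_contra hg1
      have hg1' : g ≠ 1 := fun h => hg1 (by rw [h, map_one])
      rcases (table2 g).2.2.2.2.2.2.1 with h3 | ⟨k, hk1, hk2⟩
      · obtain ⟨h, hh⟩ := (table2 g).1 h3 hg1'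
        have hx0 : phi e x₀ ∈ N := by
          have h5 : phi e x₀ = phi e h⁻¹ * phi e g * (phi e h⁻¹)⁻¹ := by
            rw [← hh]
            simp only [map_mul, map_inv]
            group
          rw [h5]
          exact hN.conj_mem _ ha _
        have hx1 : phi e x₁ ∈ N := by
          have h5 : phi e x₁ = phi e s₀ * phi e x₀ * (phi e s₀)⁻¹ := by
            rw [← s_x]
            simp only [map_mul, map_inv]
          rw [h5]
          exact hN.conj_mem _ hx0 _
        have ht' : t ∈ N := by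
          rw [← phi_c e ht, ← xx_sq, map_pow, map_mul]
          exact pow_mem (mul_mem hx0 hx1) _
        exact ht1 (hni t ht' (t_sq ht))
      · have h5 : (phi e g) ^ k.val = 1 :=
          hni _ (pow_mem ha _) (by rw [← map_pow, ← map_pow, hk2, map_one])
        exact hk1 (phi_inj e (by rw [map_pow, h5, map_one]))
    have hfixτ : ∀ τ : G, τ ^ 2 = 1 → τ ≠ 1 → ∀ a ∈ N, a * τ = τ * a → a = 1 := by
      intro τ hτ hτ1 a ha hat
      obtain ⟨c, hc⟩ := isConj_iff.1 (all_conj' e ht hno hτ hτ1)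
      have h1 : (c * a * c⁻¹) * t = t * (c * a * c⁻¹) := by
        rw [← hc]
        calc c * a * c⁻¹ * (c * τ * c⁻¹) = c * (a * τ) * c⁻¹ := by group
          _ = c * (τ * a) * c⁻¹ := by rw [hat]
          _ = c * τ * c⁻¹ * (c * a * c⁻¹) := by group
      exact conj_eq_one_iff.1 (hfix _ (hN.conj_mem a ha c) h1)
    have hinvτ : ∀ τ : G, τ ^ 2 = 1 → τ ≠ 1 → ∀ n ∈ N, τ * n * τ⁻¹ = n⁻¹ := by
      intro τ hτ hτ1 n hn
      have hτi : τ⁻¹ = τ := by
        rw [inv_eq_iff_mul_eq_one, ← pow_two, hτ]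
      let f : N → N := fun a => ⟨(a : G)⁻¹ * (τ * a * τ⁻¹), mul_mem (inv_mem a.2) (hN.conj_mem a a.2 τ)⟩
      have hf : Function.Injective f := by
        intro a b hab
        have h1 : (a : G)⁻¹ * (τ * a * τ⁻¹) = (b : G)⁻¹ * (τ * b * τ⁻¹) := congrArg Subtype.val hab
        have h2 : ((b : G) * (a : G)⁻¹) * τ = τ * ((b : G) * (a : G)⁻¹) := by
          have h3 : (a : G)⁻¹ * τ * a = (b : G)⁻¹ * τ * b := by
            have := congrArg (· * τ) h1
            simpa [mul_assoc] using this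
          calc ((b : G) * (a : G)⁻¹) * τ = b * ((a : G)⁻¹ * τ * a) * (a : G)⁻¹ := by group
            _ = b * ((b : G)⁻¹ * τ * b) * (a : G)⁻¹ := by rw [h3]
            _ = τ * ((b : G) * (a : G)⁻¹) := by group
        have h4 := hfixτ τ hτ hτ1 _ (mul_mem b.2 (inv_mem a.2)) h2
        have h5 : (b : G) = a := by
          have := eq_inv_of_mul_eq_one_left h4
          simpa using this
        exact Subtype.ext h5.symm
      obtain ⟨a, ha⟩ := (Finite.injective_iff_surjective.1 hf) ⟨n, hn⟩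
      have hna : n = (a : G)⁻¹ * (τ * a * τ⁻¹) := (congrArg Subtype.val ha).symm
      rw [hna]
      simp only [mul_inv_rev, inv_inv, hτi]
      have h2 : τ * τ = 1 := by rw [← pow_two, hτ]
      calc τ * ((a : G)⁻¹ * (τ * a * τ)) * τ = τ * (a : G)⁻¹ * τ * a * (τ * τ) := by group
        _ = τ * (a : G)⁻¹ * τ * a := by rw [h2, mul_one]
        _ = τ * ((a : G)⁻¹ * τ) * a := by group
        _ = _ := by group
    rw [eq_bot_iff]
    intro n hn
    rw [Subgroup.mem_bot]
    have h1 := hinvτ t (t_sq ht) ht1 n hn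
    have h2 := hinvτ (phi e d₀) (by rw [← map_pow, d_sq, map_one]) (fun h => d_ne (phi_inj e (by rw [h, map_one]))) n hn
    have h3 := hinvτ (phi e (c₀ * d₀)) (by rw [← map_pow, cd_sq, map_one]) (fun h => cd_ne (phi_inj e (by rw [h, map_one]))) n hn
    rw [map_mul, phi_c e ht] at h3
    have h4 : n = n⁻¹ := by
      calc n = t * n⁻¹ * t⁻¹ := by
            have := congrArg Inv.inv h1
            simp only [mul_inv_rev, inv_inv] at this
            rw [← mul_assoc] at this
            exact this.symm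
        _ = t * (phi e d₀ * n * (phi e d₀)⁻¹) * t⁻¹ := by rw [h2]
        _ = t * phi e d₀ * n * (t * phi e d₀)⁻¹ := by group
        _ = n⁻¹ := h3
    apply hni n hn
    rw [pow_two]
    nth_rw 1 [h4]
    exact inv_mul_cancel n

end main

end Cfsg.Agent.Lib.GL23Rec
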