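import Mathlib
import Cfsg.Agent.Lib.GL23Rec.Simple
import Cfsg.Agent.Lib.GL23Rec.Abstract
import Cfsg.Agent.Lib.Coprime.InvSylow

/-!
# Involution centralizer `GL(2,3)`, order `5616`: the Sylow `3`-subgroup in the centralizer of `y`
-/

set_option autoImplicit false

namespace Cfsg.Agent.Lib.GL23Rec

open Subgroup Cfsg.Agent.Lib.Gross.GL23Table Cfsg.Agent.Lib.Gross.GL23Group

universe u

variable {G : Type u} [Group G] {t : G}

lemma fact_three : (5616 : ℕ).factorization 3 = 3 := by
  have h1 : (5616 : ℕ) = 3 ^ 3 * 208 := by norm_num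
  rw [h1, Nat.factorization_mul (by norm_num) (by norm_num), Finsupp.add_apply,
    Nat.Prime.factorization_pow Nat.prime_three, Nat.factorization_eq_zero_of_not_dvd (by norm_num)]
  simp

lemma fact_thirteen : (5616 : ℕ).factorization 13 = 1 := by
  have h1 : (5616 : ℕ) = 13 ^ 1 * 432 := by norm_num
  rw [h1, Nat.factorization_mul (by norm_num) (by norm_num), Finsupp.add_apply,
    Nat.Prime.factorization_pow (by norm_num), Nat.factorization_eq_zero_of_not_dvd (by norm_num)]
  simp

/-- A subgroup of order `13` in a simple group of order `5616` has few normalizing elements. -/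
lemma no_normalizer_78 [Finite G] [IsSimpleGroup G] (hc : Nat.card G = 5616) (Y : Subgroup G)
    (hY : Nat.card Y = 13) (hN : 78 ∣ Nat.card (normalizer (Y : Set G))) : False := by
  haveI : Fact (Nat.Prime 13) := ⟨by norm_num⟩
  let S : Sylow 13 G := Sylow.ofCard Y (by rw [hY, hc, fact_thirteen]; norm_num)
  have hS : (S : Subgroup G) = Y := rfl
  have h1 : Nat.card (Sylow 13 G) = (normalizer (Y : Set G)).index := by
    exact Sylow.card_eq_index_normalizer S
  have h2 : Nat.card (Sylow 13 G) ≡ 1 [MOD 13] := card_sylow_modEq_one 13 G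
  have h3 := Subgroup.card_mul_index (normalizer (Y : Set G))
  rw [hc] at h3
  obtain ⟨m, hm⟩ := hN
  have h4 : (normalizer (Y : Set G)).index ∣ 72 := by
    refine ⟨m, ?_⟩
    rw [hm] at h3
    nlinarith
  rw [h1] at h2
  have h5 : (normalizer (Y : Set G)).index = 1 := by
    have h6 : (normalizer (Y : Set G)).index ∈ Nat.divisors 72 := by
      rw [Nat.mem_divisors]
      exact ⟨h4, by norm_num⟩
    have h7 : Nat.divisors 72 = {1, 2, 3, 4, 6, 8, 9, 12, 18, 24, 36, 72} := by decide +kernel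
    rw [h7] at h6
    simp only [Finset.mem_insert, Finset.mem_singleton] at h6
    unfold Nat.ModEq at h2
    rcases h6 with h | h | h | h | h | h | h | h | h | h | h | h <;> rw [h] at h2 ⊢ <;> simp at h2
  have h8 : normalizer (Y : Set G) = ⊤ := Subgroup.index_eq_one.1 h5
  have h9 : Y.Normal := by
    rw [← Subgroup.normalizer_eq_top_iff]
    exact h8
  rcases IsSimpleGroup.eq_bot_or_eq_top_of_normal Y h9 with h | h
  · rw [h, Subgroup.card_bot] at hY
    norm_num at hY
  · rw [h, Subgroup.card_top, hc] at hY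
    norm_num at hY

lemma odd_of_pow {a : G} {n : ℕ} (hn : Odd n) (h : a ^ n = 1) : Odd (orderOf a) :=
  Odd.of_dvd_nat hn (orderOf_dvd_of_pow_eq_one h)

lemma fin3_eq {y : G} {A : Subgroup G} (hy3 : y ^ 3 = 1) (hyA : y ∉ A) (i i' : Fin 3)
    (h : (y ^ i'.val)⁻¹ * y ^ i.val ∈ A) : i = i' := by
  have h3 : y ^ 2 = y⁻¹ := by
    apply eq_inv_of_mul_eq_one_left
    rw [← pow_succ, hy3]
  have h4 : y⁻¹ ∉ A := fun h => hyA (by simpa using h)
  have h5 : (y ^ 2)⁻¹ * y = y⁻¹ := by
    rw [h3, inv_inv, ← pow_two, h3]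
  have h6 : y⁻¹ * y ^ 2 = y := by
    rw [pow_two]
    group
  fin_cases i <;> fin_cases i' <;> first
    | rfl
    | (exfalso; simp at h; first
        | exact hyA h
        | exact h4 h
        | (rw [h3] at h; first | exact hyA h | exact h4 h)
        | (rw [h5] at h; exact h4 h)
        | (rw [h6] at h; exact hyA h))

section main

variable [Finite G] (e : centralizer ({t} : Set G) ≃* GL0) (ht : orderOf t = 2)
  (hno : ∀ N : Subgroup G, N.Normal → N.index ≠ 2)

include ht

omit [Finite G] in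
lemma t_ne : t ≠ 1 := by
  intro h
  rw [h, orderOf_one] at ht
  norm_num at ht

include e hno

/-- Elements of order three commuting with an involution are conjugate to `y`. -/
lemma conj3 {τ a : G} (hτ : τ ^ 2 = 1) (hτ1 : τ ≠ 1) (hc : a * τ = τ * a) (ha3 : a ^ 3 = 1)
    (ha1 : a ≠ 1) : IsConj a (phi e x₀) := by
  obtain ⟨c, hcc⟩ := isConj_iff.1 (all_conj' e ht hno hτ hτ1)
  have h1 : (c * a * c⁻¹) * t = t * (c * a * c⁻¹) := by
    rw [← hcc]
    calc c * a * c⁻¹ * (c * τ * c⁻¹) = c * (a * τ) * c⁻¹ := by group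
      _ = c * (τ * a) * c⁻¹ := by rw [hc]
      _ = c * τ * c⁻¹ * (c * a * c⁻¹) := by group
  obtain ⟨g, hg⟩ := exists_phi e h1
  have hg3 : g ^ 3 = 1 := by
    apply phi_inj e
    rw [map_pow, hg, conj_pow, ha3, map_one]
    group
  have hg1 : g ≠ 1 := by
    intro h
    rw [h, map_one] at hg
    exact ha1 (conj_eq_one_iff.1 hg.symm)
  obtain ⟨h, hh⟩ := (table2 g).1 hg3 hg1
  refine isConj_iff.2 ⟨(phi e h)⁻¹ * c, ?_⟩
  have h2 : phi e h * phi e x₀ * (phi e h)⁻¹ = c * a * c⁻¹ := by
    rw [← hg, ← hh]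
    simp only [map_mul, map_inv]
  calc (phi e h)⁻¹ * c * a * ((phi e h)⁻¹ * c)⁻¹ = (phi e h)⁻¹ * (c * a * c⁻¹) * phi e h := by group
    _ = (phi e h)⁻¹ * (phi e h * phi e x₀ * (phi e h)⁻¹) * phi e h := by rw [h2]
    _ = phi e x₀ := by group

/-- Small `3`-subgroups of centralizers. -/
lemma small {τ : G} (hτ : τ ^ 2 = 1) (hτ1 : τ ≠ 1) (H : Subgroup G) (hH : Nat.card H ∣ 27)
    (hle : H ≤ centralizer ({τ} : Set G)) : Nat.card H ∣ 3 := by
  obtain ⟨c, hcc⟩ := isConj_iff.1 (all_conj' e ht hno hτ hτ1)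
  let f : G →* G := (MulAut.conj c).toMonoidHom
  have hf : ∀ x, f x = c * x * c⁻¹ := fun x => rfl
  have hfinj : Function.Injective f := (MulAut.conj c).injective
  have h1 : Nat.card (H.map f) = Nat.card H := Nat.card_congr (Subgroup.equivMapOfInjective H f hfinj).toEquiv.symm
  have h2 : H.map f ≤ centralizer ({t} : Set G) := by
    rintro _ ⟨a, ha, rfl⟩
    rw [mem_centralizer_singleton_iff, hf, ← hcc]
    have h3 := mem_centralizer_singleton_iff.1 (hle ha)
    calc c * a * c⁻¹ * (c * τ * c⁻¹) = c * (a * τ) * c⁻¹ := by group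
      _ = c * (τ * a) * c⁻¹ := by rw [h3]
      _ = c * τ * c⁻¹ * (c * a * c⁻¹) := by group
  have h3 : Nat.card (H.map f) ∣ 48 := by
    have h4 := Subgroup.card_dvd_of_le h2
    rwa [Nat.card_congr e.toEquiv, card_GL0] at h4
  rw [h1] at h3
  have h5 := Nat.dvd_gcd hH h3
  simpa using h5

omit hno in
lemma tuy : TUY t (phi e d₀) (phi e x₀) where
  t2 := t_sq ht
  u2 := by rw [← map_pow, d_sq, map_one]
  tu := (phi_comm e d₀).symm
  y3 := by rw [← map_pow, x₀_cube, map_one]
  y1 := fun h => x₀_ne (phi_inj e (by rw [h, map_one]))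
  ty := (phi_comm e x₀).symm
  uy := by
    have := congrArg (phi e) d_x₀
    simpa only [map_mul, map_inv] using this

omit hno in
/-- A `2`-subgroup of the centralizer of `y` containing `t` is `⟨t⟩`. -/
lemma two_sub (T : Subgroup G) (hTp : IsPGroup 2 T) (hTy : ∀ a ∈ T, a * phi e x₀ = phi e x₀ * a)
    (htT : t ∈ T) : ∀ a ∈ T, a = 1 ∨ a = t := by
  haveI : Fact (Nat.Prime 2) := ⟨Nat.prime_two⟩
  have two_elem : ∀ a ∈ T, a * t = t * a → a = 1 ∨ a = t := by
    intro a ha hat
    obtain ⟨g, rfl⟩ := exists_phi e hat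
    have hg : g * x₀ = x₀ * g := by
      apply phi_inj e
      rw [map_mul, map_mul]
      exact hTy _ ha
    obtain ⟨k, hk⟩ := hTp ⟨phi e g, ha⟩
    have hk1 : (phi e g) ^ 2 ^ k = 1 := congrArg Subtype.val hk
    have hk2 : (g ^ 2) ^ 2 ^ k = 1 := by
      apply phi_inj e
      rw [map_pow, map_pow, map_one, ← pow_mul, mul_comm, pow_mul, hk1, one_pow]
    have hk3 : (g ^ 2) ^ 3 = 1 := by
      rw [← pow_mul]
      exact (table3 g).1 hg
    have hk4 : g ^ 2 = 1 := by
      have h1 : (g ^ 2) ^ Nat.gcd 3 (2 ^ k) = 1 := pow_gcd_eq_one.2 ⟨hk3, hk2⟩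
      have h2 : Nat.gcd 3 (2 ^ k) = 1 := Nat.Coprime.pow_right k (by norm_num)
      rwa [h2, pow_one] at h1
    rcases (table3 g).2.1 hg hk4 with h | h
    · left
      rw [h, map_one]
    · right
      rw [h, phi_c e ht]
  haveI : Nontrivial T := ⟨⟨⟨t, htT⟩, 1, fun h => t_ne ht (congrArg Subtype.val h)⟩⟩
  haveI := hTp.center_nontrivial
  obtain ⟨ζ, hζ⟩ := exists_ne (1 : center T)
  have hζ1 : ((ζ : T) : G) ≠ 1 := by
    intro h
    apply hζ
    exact Subtype.ext (Subtype.ext h)
  have hcomm : ∀ a : T, (a : G) * (ζ : T) = (ζ : T) * a := by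
    intro a
    have := (mem_center_iff.1 ζ.2) a
    exact (congrArg Subtype.val this)
  have hζt : ((ζ : T) : G) = t := by
    rcases two_elem _ (ζ : T).2 (hcomm ⟨t, htT⟩).symm with h | h
    · exact absurd h hζ1
    · exact h
  intro a ha
  apply two_elem a ha
  have := hcomm ⟨a, ha⟩
  rwa [hζt] at this

omit hno in
/-- The normal `2`-complement of the centralizer of `y`. -/
lemma exists_K : ∃ K : Subgroup G, (∀ a ∈ K, a * phi e x₀ = phi e x₀ * a) ∧
    (∀ a, a * phi e x₀ = phi e x₀ * a → Odd (orderOf a) → a ∈ K) ∧ Odd (Nat.card K) ∧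
    (∀ c, c * phi e x₀ = phi e x₀ * c → ∀ a ∈ K, c * a * c⁻¹ ∈ K) ∧
    2 * Nat.card K = Nat.card (centralizer ({phi e x₀} : Set G)) := by
  haveI : Fact (Nat.Prime 2) := ⟨Nat.prime_two⟩
  set y := phi e x₀ with hy
  let C : Subgroup G := centralizer ({y} : Set G)
  have hty : t * y = y * t := (phi_comm e x₀).symm
  let t' : C := ⟨t, mem_centralizer_singleton_iff.2 hty⟩
  have ht'2 : t' ^ 2 = 1 := Subtype.ext (t_sq ht)
  have ht'1 : t' ≠ 1 := fun h => t_ne ht (congrArg Subtype.val h)
  have ht'o : orderOf t' = 2 := orderOf_eq_prime ht'2 ht'1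
  let S : Subgroup C := zpowers t'
  have hScard : Nat.card S = 2 := by
    rw [Nat.card_zpowers, ht'o]
  have hSp : IsPGroup 2 S := IsPGroup.of_card (n := 1) (by rw [hScard]; norm_num)
  obtain ⟨S', hS'⟩ := hSp.exists_le_sylow
  have hS'S : (S' : Subgroup C) ≤ S := by
    intro a ha
    have hT := two_sub e ht ((S' : Subgroup C).map C.subtype) ((S'.isPGroup').map C.subtype)
      (by
        rintro _ ⟨b, -, rfl⟩
        exact mem_centralizer_singleton_iff.1 b.2)
      ⟨t', hS' (mem_zpowers t'), rfl⟩ a.1 ⟨a, ha, rfl⟩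
    rcases hT with h | h
    · have : a = 1 := Subtype.ext h
      rw [this]
      exact one_mem _
    · have : a = t' := Subtype.ext h
      rw [this]
      exact mem_zpowers t'
  have hSeq : (S' : Subgroup C) = S := le_antisymm hS'S hS'
  have hodd : Odd S.index := by
    have := S'.not_dvd_index
    rw [hSeq] at this
    exact Nat.odd_iff.2 (by omega)
  have hM : (⊥ : Subgroup C).relIndex S = 2 := by
    rw [Subgroup.relIndex_bot_left, hScard]
  obtain ⟨N, hNn, hN2, -⟩ := Cfsg.Agent.Lib.Transfer.IndexTwo.exists_normal_index_two_of_relIndex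
    S hodd ⊥ hM t' 1 (by simpa using ht'2)
    (by
      intro g _ hg
      rw [Subgroup.mem_bot] at hg
      apply ht'1
      have h9 : g⁻¹ * t' * g⁻¹⁻¹ = 1 := by simpa using hg
      exact conj_eq_one_iff.1 h9)
    (by
      intro k hk hk2 g _
      have hk' : k = 2 := by
        have := Nat.le_of_dvd (by norm_num) hk2
        omega
      rw [hk', ht'2]
      simp)
  have hcardN : Nat.card C = Nat.card N * 2 := by
    rw [← hN2, Subgroup.card_mul_index]
  have hcardS : Nat.card C = 2 * S.index := by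
    rw [← hScard, Subgroup.card_mul_index]
  have hNS : Nat.card N = S.index := by omega
  have hKcard : Nat.card (N.map C.subtype) = Nat.card N := card_map_subtype N
  refine ⟨N.map C.subtype, ?_, ?_, ?_, ?_, ?_⟩
  · rintro _ ⟨a, -, rfl⟩
    exact mem_centralizer_singleton_iff.1 a.2
  · intro a ha hodd
    let a' : C := ⟨a, mem_centralizer_singleton_iff.2 ha⟩
    have h1 : orderOf a' = orderOf a := Subgroup.orderOf_mk a _
    have h2 : a' ^ 2 ∈ N := Subgroup.sq_mem_of_index_two hN2 a'
    obtain ⟨m, hm⟩ := hodd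
    have h3 : a' = (a' ^ 2) ^ (m + 1) := by
      rw [← pow_mul]
      have h4 : 2 * (m + 1) = orderOf a' + 1 := by omega
      rw [h4, pow_succ, pow_orderOf_eq_one, one_mul]
    exact ⟨a', by rw [h3]; exact pow_mem h2 _, rfl⟩
  · rw [hKcard, hNS]
    exact hodd
  · rintro c hc _ ⟨a, ha, rfl⟩
    let c' : C := ⟨c, mem_centralizer_singleton_iff.2 hc⟩
    exact ⟨c' * a * c'⁻¹, hNn.conj_mem a ha c', rfl⟩
  · rw [hKcard, hcardN, mul_comm]


/-- The complement has order dividing `27`. -/
lemma K_dvd_27 [IsSimpleGroup G] (hc : Nat.card G = 5616) (K : Subgroup G)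
    (hK1 : ∀ a ∈ K, a * phi e x₀ = phi e x₀ * a)
    (hK3 : Odd (Nat.card K))
    (hK4 : ∀ c, c * phi e x₀ = phi e x₀ * c → ∀ a ∈ K, c * a * c⁻¹ ∈ K)
    (hK5 : 2 * Nat.card K = Nat.card (centralizer ({phi e x₀} : Set G))) : Nat.card K ∣ 27 := by
  have hty : t * phi e x₀ = phi e x₀ * t := (phi_comm e x₀).symm
  have h351 : Nat.card K ∣ 351 := by
    have h1 : Nat.card (centralizer ({phi e x₀} : Set G)) ∣ 5616 := by
      rw [← hc]
      exact Subgroup.card_subgroup_dvd_card _
    rw [← hK5] at h1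
    have h2 : Nat.card K ∣ 8 * 351 :=
      Nat.dvd_of_mul_dvd_mul_left (by norm_num : 0 < 2) (show 2 * Nat.card K ∣ 2 * (8 * 351) from h1)
    have h5 : Nat.Coprime (Nat.card K) 8 := by
      have : Nat.Coprime (Nat.card K) (2 ^ 3) := Nat.Coprime.pow_right 3 (Nat.coprime_two_right.2 hK3)
      simpa using this
    exact h5.dvd_of_dvd_mul_left h2
  have h13 : ¬ 13 ∣ Nat.card K := by
    intro h13
    haveI : Fact (Nat.Prime 13) := ⟨by norm_num⟩
    haveI : Fact (Nat.Prime 2) := ⟨Nat.prime_two⟩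
    have htN : t ∈ normalizer (K : Set G) := by
      rw [mem_normalizer_iff]
      intro a
      refine ⟨hK4 t hty a, fun ha => ?_⟩
      have h1 := hK4 t hty _ ha
      have h2 : t * (t * a * t⁻¹) * t⁻¹ = a := by
        have h3 : t * t = 1 := by rw [← pow_two, t_sq ht]
        have h4 : t⁻¹ = t := by rw [inv_eq_iff_mul_eq_one, h3]
        rw [h4]
        calc t * (t * a * t) * t = (t * t) * a * (t * t) := by group
          _ = a := by rw [h3]; group
      rwa [h2] at h1
    have hA : zpowers t ≤ normalizer (K : Set G) := zpowers_le.2 htN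
    have hAc : Nat.card (zpowers t) = 2 := by rw [Nat.card_zpowers, ht]
    have hcop : (Nat.card (zpowers t)).Coprime (Nat.card K) := by
      rw [hAc]
      exact Nat.coprime_two_left.2 hK3
    obtain ⟨P, hP⟩ := Cfsg.Agent.Lib.Coprime.InvSylow.exists_invariant_sylow hA hcop
      (Or.inl (isSolvable_of_comm (fun a b => by
        apply Subtype.ext
        obtain ⟨m, hm⟩ := mem_zpowers_iff.1 a.2
        obtain ⟨n, hn⟩ := mem_zpowers_iff.1 b.2
        show (a : G) * b = b * a
        rw [← hm, ← hn]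
        exact ((Commute.refl t).zpow_zpow m n).eq))) 13
    have hPc : Nat.card P = 13 := by
      have h1 : 13 ^ 1 ∣ Nat.card P := P.pow_dvd_card_of_pow_dvd_card (by simpa using h13)
      obtain ⟨k, hk⟩ := IsPGroup.iff_card.1 P.isPGroup'
      have h2 : Nat.card (P : Subgroup K) ∣ 351 := (Subgroup.card_subgroup_dvd_card _).trans h351
      rw [hk] at h1 h2 ⊢
      have hk1 : k = 1 := by
        rcases k with _ | _ | k
        · simp at h1
        · rfl
        · exfalso
          have h3 : 13 ^ 2 ∣ 13 ^ (k + 1 + 1) := pow_dvd_pow 13 (by omega)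
          have h4 := h3.trans h2
          norm_num at h4
      rw [hk1]
      norm_num
    let Y : Subgroup G := (P : Subgroup K).map K.subtype
    have hYc : Nat.card Y = 13 := by
      have := card_map_subtype (P : Subgroup K)
      exact this.trans hPc
    have hYK : ∀ a ∈ Y, a ∈ K := by
      rintro _ ⟨a, -, rfl⟩
      exact a.2
    apply no_normalizer_78 hc Y hYc
    have hYN : Nat.card Y ∣ Nat.card (normalizer (Y : Set G)) :=
      Subgroup.card_dvd_of_le le_normalizer
    have h2N : 2 ∣ Nat.card (normalizer (Y : Set G)) := by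
      have := Subgroup.orderOf_dvd_natCard (normalizer (Y : Set G)) (hP (mem_zpowers t))
      rwa [ht] at this
    have h3N : 3 ∣ Nat.card (normalizer (Y : Set G)) := by
      have hyN : phi e x₀ ∈ normalizer (Y : Set G) := by
        rw [mem_normalizer_iff]
        intro a
        have hcomm : ∀ a ∈ Y, phi e x₀ * a * (phi e x₀)⁻¹ = a := by
          intro a ha
          rw [← hK1 a (hYK a ha)]
          group
        refine ⟨fun ha => by rwa [hcomm a ha], fun ha => ?_⟩
        have h5 := hK1 _ (hYK _ ha)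
        have h6 : phi e x₀ * a = phi e x₀ * (phi e x₀ * a * (phi e x₀)⁻¹) := by
          rw [← h5]
          group
        have h7 : a = phi e x₀ * a * (phi e x₀)⁻¹ := mul_left_cancel h6
        rw [h7]
        exact ha
      have := Subgroup.orderOf_dvd_natCard (normalizer (Y : Set G)) hyN
      have hy3 : orderOf (phi e x₀) = 3 := by
        haveI : Fact (Nat.Prime 3) := ⟨Nat.prime_three⟩
        exact orderOf_eq_prime (tuy e ht).y3 (tuy e ht).y1
      rwa [hy3] at this
    rw [hYc] at hYN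
    have h6 : 2 * 3 ∣ Nat.card (normalizer (Y : Set G)) :=
      Nat.Coprime.mul_dvd_of_dvd_of_dvd (by norm_num) h2N h3N
    have h7 : 2 * 3 * 13 ∣ Nat.card (normalizer (Y : Set G)) :=
      Nat.Coprime.mul_dvd_of_dvd_of_dvd (by norm_num) h6 hYN
    simpa using h7
  have h5 : Nat.Coprime (Nat.card K) 13 := by
    have := (Nat.Prime.coprime_iff_not_dvd (p := 13) (by norm_num)).2 h13
    exact this.symm
  have h6 : Nat.card K ∣ 13 * 27 := by simpa using h351
  exact h5.dvd_of_dvd_mul_left h6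

/-- The subgroup `Q`. -/
theorem exists_Q [IsSimpleGroup G] (hc : Nat.card G = 5616) :
    ∃ Q : Subgroup G, Loc t (phi e d₀) (phi e x₀) Q := by
  obtain ⟨K, hK1, hK2, hK3, hK4, hK5⟩ := exists_K e ht
  have h27 := K_dvd_27 e ht hno hc K hK1 hK3 hK4 hK5
  have hT := tuy e ht
  set y := phi e x₀ with hy
  set u := phi e d₀ with hu
  have huu : u * u = 1 := by rw [← pow_two, hT.u2]
  have hui : u⁻¹ = u := by rw [inv_eq_iff_mul_eq_one, huu]
  have hodd3 : Odd 3 := by decide
  have hodd27 : Odd 27 := by decide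
  have hKpow : ∀ a ∈ K, a ^ Nat.card K = 1 := by
    intro a ha
    have := pow_card_eq_one' (x := (⟨a, ha⟩ : K))
    exact congrArg Subtype.val this
  have hKu : ∀ a ∈ K, u * a * u⁻¹ ∈ K := by
    intro a ha
    apply hK2
    · have h1 : (u * a * u⁻¹) * y⁻¹ = y⁻¹ * (u * a * u⁻¹) := by
        rw [← hT.uy]
        calc u * a * u⁻¹ * (u * y * u⁻¹) = u * (a * y) * u⁻¹ := by group
          _ = u * (y * a) * u⁻¹ := by rw [hK1 a ha]
          _ = u * y * u⁻¹ * (u * a * u⁻¹) := by group
      have h2 : Commute (u * a * u⁻¹) y⁻¹ := h1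
      exact (h2.inv_right).eq |>.trans (by rw [inv_inv]) |> fun h => by simpa using h
    · apply odd_of_pow hK3
      rw [conj_pow, hKpow a ha]
      group
  have hKt : ∀ a ∈ K, t * a * t⁻¹ ∈ K := hK4 t hT.ty
  suffices hk27 : Nat.card K = 27 by
    refine ⟨K, hk27, hK1, hKt, hKu, ?_⟩
    intro a ha ha3
    exact hK2 a ha (odd_of_pow hodd3 ha3)
  by_contra hne
  haveI : Fact (Nat.Prime 3) := ⟨Nat.prime_three⟩
  obtain ⟨m, hm, hm'⟩ := (Nat.dvd_prime_pow Nat.prime_three).1 (show Nat.card K ∣ 3 ^ 3 from h27)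
  have hle9 : Nat.card K ≤ 9 := by
    have hm2 : m ≤ 2 := by
      by_contra h
      have : m = 3 := by omega
      rw [this] at hm'
      exact hne (by rw [hm']; norm_num)
    rw [hm']
    calc 3 ^ m ≤ 3 ^ 2 := Nat.pow_le_pow_right (by norm_num) hm2
      _ = 9 := by norm_num
  have hKp : IsPGroup 3 K := IsPGroup.of_card hm'
  obtain ⟨P, hP⟩ := hKp.exists_le_sylow
  have hPc : Nat.card P = 27 := by
    rw [P.card_eq_multiplicity, hc, fact_three]
    norm_num
  have hP27 : ∀ a ∈ (P : Subgroup G), a ^ 27 = 1 := by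
    intro a ha
    have := pow_card_eq_one' (x := (⟨a, ha⟩ : (P : Subgroup G)))
    rw [hPc] at this
    exact congrArg Subtype.val this
  have hPK : ∀ a ∈ (P : Subgroup G), a * y = y * a → a ∈ K := fun a ha h =>
    hK2 a h (odd_of_pow hodd27 (hP27 a ha))
  have hyK : y ∈ K := hK2 y rfl (odd_of_pow hodd3 hT.y3)
  have hyP : y ∈ (P : Subgroup G) := hP hyK
  have hy3 : orderOf y = 3 := orderOf_eq_prime hT.y3 hT.y1
  -- a central element of order three
  haveI : Nontrivial (P : Subgroup G) := ⟨⟨⟨y, hyP⟩, 1, fun h => hT.y1 (congrArg Subtype.val h)⟩⟩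
  have hZp : IsPGroup 3 (center (P : Subgroup G)) := P.isPGroup'.to_subgroup _
  haveI hZn := P.isPGroup'.center_nontrivial
  have h3Z : 3 ∣ Nat.card (center (P : Subgroup G)) := by
    obtain ⟨k, hk⟩ := IsPGroup.iff_card.1 hZp
    rw [hk]
    rcases k with _ | k
    · exfalso
      have : Nat.card (center (P : Subgroup G)) ≠ 1 := by
        intro h
        have := (Nat.card_eq_one_iff_unique.1 h).1
        exact not_subsingleton _ this
      simp [hk] at this
    · exact Dvd.intro_left (3 ^ k) (pow_succ 3 k).symm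
  obtain ⟨ζ, hζ⟩ := exists_prime_orderOf_dvd_card' 3 h3Z
  set c : G := ((ζ : (P : Subgroup G)) : G) with hcdef
  have hcP : c ∈ (P : Subgroup G) := (ζ : (P : Subgroup G)).2
  have hc3 : orderOf c = 3 := by
    rw [hcdef, Subgroup.orderOf_coe, Subgroup.orderOf_coe, hζ]
  have hc33 : c ^ 3 = 1 := by
    rw [← hc3]
    exact pow_orderOf_eq_one c
  have hc1 : c ≠ 1 := by
    intro h
    rw [h, orderOf_one] at hc3
    norm_num at hc3
  have hcen : ∀ a ∈ (P : Subgroup G), a * c = c * a := by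
    intro a ha
    have := (mem_center_iff.1 ζ.2) ⟨a, ha⟩
    exact congrArg Subtype.val this
  by_cases hpy : ∀ p ∈ (P : Subgroup G), p * y = y * p
  · have hle : (P : Subgroup G) ≤ K := fun a ha => hPK a ha (hpy a ha)
    have := Subgroup.card_le_of_le hle
    omega
  push Not at hpy
  obtain ⟨p, hp, hpy⟩ := hpy
  have hyc : y ∉ zpowers c := by
    intro h
    obtain ⟨k, hk⟩ := mem_zpowers_iff.1 h
    apply hpy
    rw [← hk]
    exact ((show Commute p c from hcen p hp).zpow_right k).eq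
  have hcK : c ∈ K := hPK c hcP (hcen y hyP).symm
  have hcy : c * y = y * c := (hcen y hyP).symm
  -- the normal form
  have hinjN : Function.Injective (fun q : Fin 3 × Fin 3 =>
      (⟨y ^ q.1.val * c ^ q.2.val, mul_mem (pow_mem hyK _) (pow_mem hcK _)⟩ : K)) := by
    rintro ⟨i, j⟩ ⟨i', j'⟩ h
    have h1 : y ^ i.val * c ^ j.val = y ^ i'.val * c ^ j'.val := congrArg Subtype.val h
    have h2 : (y ^ i'.val)⁻¹ * y ^ i.val = c ^ j'.val * (c ^ j.val)⁻¹ := by
      calc (y ^ i'.val)⁻¹ * y ^ i.val = (y ^ i'.val)⁻¹ * (y ^ i.val * c ^ j.val) * (c ^ j.val)⁻¹ := by group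
        _ = (y ^ i'.val)⁻¹ * (y ^ i'.val * c ^ j'.val) * (c ^ j.val)⁻¹ := by rw [h1]
        _ = c ^ j'.val * (c ^ j.val)⁻¹ := by group
    have h3 : i = i' := fin3_eq hT.y3 hyc i i' (by
      rw [h2]
      exact mul_mem (pow_mem (mem_zpowers c) _) (inv_mem (pow_mem (mem_zpowers c) _)))
    subst h3
    have h4 : c ^ j.val = c ^ j'.val := mul_left_cancel h1
    have h5 := pow_injOn_Iio_orderOf (x := c) (show j.val ∈ Set.Iio (orderOf c) by simp [hc3])
      (show j'.val ∈ Set.Iio (orderOf c) by simp [hc3]) h4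
    have h6 : j = j' := Fin.ext h5
    rw [h6]
  have hsurjN := (hinjN.bijective_of_nat_card_le (by
    simpa [Nat.card_eq_fintype_card] using hle9)).2
  -- conjugates
  have hd := comm_mem_zpowers hPc hcP hc3 hcen hp hyP
  set d := p * y * p⁻¹ * y⁻¹ with hddef
  have hd1 : d ≠ 1 := by
    intro h
    apply hpy
    have h1 : p * y * p⁻¹ * y⁻¹ = 1 := h
    calc p * y = (p * y * p⁻¹ * y⁻¹) * (y * p) := by group
      _ = y * p := by rw [h1, one_mul]
  have hdc : d = c ∨ d = c⁻¹ := by
    rcases mem_zpowers_three hc33 hd with h | h | h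
    · exact absurd h hd1
    · exact Or.inl h
    · exact Or.inr h
  have hdp : d * p = p * d := by
    rcases hdc with h | h <;> rw [h]
    · exact (hcen p hp).symm
    · exact ((show Commute p c from hcen p hp).inv_right.eq).symm
  have hcj1 : IsConj (d * y) y := by
    refine isConj_iff.2 ⟨p⁻¹, ?_⟩
    rw [hddef]
    group
  have hcj2 : IsConj (d⁻¹ * y) y := by
    refine isConj_iff.2 ⟨p, ?_⟩
    have h1 : p * d⁻¹ = d⁻¹ * p := ((show Commute d p from hdp).inv_left.eq).symm
    calc p * (d⁻¹ * y) * p⁻¹ = (p * d⁻¹) * y * p⁻¹ := by group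
      _ = d⁻¹ * p * y * p⁻¹ := by rw [h1]
      _ = y := by rw [hddef]; group
  have hcj3 : ∀ a ∈ zpowers c, IsConj (a * y) y := by
    intro a ha
    rcases mem_zpowers_three hc33 ha with h | h | h
    · rw [h, one_mul]
    · rcases hdc with h' | h'
      · rw [h, ← h']
        exact hcj1
      · have : c = d⁻¹ := by rw [h', inv_inv]
        rw [h, this]
        exact hcj2
    · rcases hdc with h' | h'
      · rw [h, ← h']
        exact hcj2
      · rw [h, ← h']
        exact hcj1
  have hyinv : IsConj y⁻¹ y := (isConj_iff.2 ⟨u, hT.uy⟩ : IsConj y y⁻¹).symm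
  have hnf : ∀ a ∈ K, a ∈ zpowers c ∨ IsConj a y := by
    intro a ha
    obtain ⟨⟨i, j⟩, hq⟩ := hsurjN ⟨a, ha⟩
    have ha' : a = y ^ i.val * c ^ j.val := (congrArg Subtype.val hq).symm
    have hy2 : y ^ 2 = y⁻¹ := by
      apply eq_inv_of_mul_eq_one_left
      rw [← pow_succ, hT.y3]
    have hcm : c ^ j.val * y = y * c ^ j.val := ((show Commute c y from hcy).pow_left _).eq
    have hcj := pow_mem (mem_zpowers c) j.val
    have hi : i.val = 0 ∨ i.val = 1 ∨ i.val = 2 := by omega
    rcases hi with hi | hi | hi <;> rw [hi] at ha'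
    · left
      rw [ha', pow_zero, one_mul]
      exact hcj
    · right
      rw [ha', pow_one, ← hcm]
      exact hcj3 _ hcj
    · right
      have h1 : a⁻¹ = (c ^ j.val)⁻¹ * y := by
        rw [ha', hy2]
        group
      have h2 : IsConj a⁻¹ y := by
        rw [h1]
        exact hcj3 _ (inv_mem hcj)
      obtain ⟨g, hg⟩ := isConj_iff.1 h2
      have h3 : IsConj a y⁻¹ := isConj_iff.2 ⟨g, by rw [← hg]; group⟩
      exact h3.trans hyinv
  have hcny : ¬ IsConj c y := by
    intro hcj
    obtain ⟨g, hg⟩ := isConj_iff.1 hcj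
    let f : G →* G := (MulAut.conj g).toMonoidHom
    have hf : ∀ x, f x = g * x * g⁻¹ := fun x => rfl
    have hfinj : Function.Injective f := (MulAut.conj g).injective
    have h1 : Nat.card ((P : Subgroup G).map f) = 27 := by
      rw [← hPc]
      exact Nat.card_congr (Subgroup.equivMapOfInjective (P : Subgroup G) f hfinj).toEquiv.symm
    have h2 : (P : Subgroup G).map f ≤ K := by
      rintro _ ⟨a, ha, rfl⟩
      apply hK2
      · rw [hf, ← hg]
        calc g * a * g⁻¹ * (g * c * g⁻¹) = g * (a * c) * g⁻¹ := by group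
          _ = g * (c * a) * g⁻¹ := by rw [hcen a ha]
          _ = g * c * g⁻¹ * (g * a * g⁻¹) := by group
      · apply odd_of_pow hodd27
        rw [hf, conj_pow, hP27 a ha]
        group
    have := Subgroup.card_le_of_le h2
    omega
  have hfix : ∀ τ : G, τ * c * τ⁻¹ ∈ K → τ * c * τ⁻¹ = c ∨ τ * c * τ⁻¹ = c⁻¹ := by
    intro τ hτ
    rcases hnf _ hτ with h | h
    · rcases mem_zpowers_three hc33 h with h1 | h1 | h1
      · exact absurd (conj_eq_one_iff.1 h1) hc1
      · exact Or.inl h1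
      · exact Or.inr h1
    · exact absurd ((isConj_iff.2 ⟨τ, rfl⟩ : IsConj c (τ * c * τ⁻¹)).trans h) hcny
  have hcomm_of : ∀ τ : G, τ * c * τ⁻¹ = c → c * τ = τ * c := by
    intro τ h
    calc c * τ = τ * c * τ⁻¹ * τ := by rw [h]
      _ = τ * c := by group
  rcases hfix t (hKt c hcK) with h1 | h1
  · exact hcny (conj3 e ht hno (t_sq ht) (t_ne ht) (hcomm_of t h1) hc33 hc1)
  rcases hfix u (hKu c hcK) with h2 | h2
  · exact hcny (conj3 e ht hno hT.u2 (fun h => d_ne (phi_inj e (by rw [map_one]; exact h))) (hcomm_of u h2) hc33 hc1)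
  have htu : t * u = phi e (c₀ * d₀) := by
    rw [map_mul, phi_c e ht]
  have h3 : (t * u) * c * (t * u)⁻¹ = c := by
    calc (t * u) * c * (t * u)⁻¹ = t * (u * c * u⁻¹) * t⁻¹ := by group
      _ = t * c⁻¹ * t⁻¹ := by rw [h2]
      _ = (t * c * t⁻¹)⁻¹ := by group
      _ = c := by rw [h1, inv_inv]
  refine hcny (conj3 e ht hno (τ := t * u) ?_ ?_ (hcomm_of _ h3) hc33 hc1)
  · rw [htu, ← map_pow, cd_sq, map_one]
  · rw [htu]
    exact fun h => cd_ne (phi_inj e (by rw [h, map_one]))

end main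

end Cfsg.Agent.Lib.GL23Rec
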