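import Mathlib
import Cfsg.Agent.Lib.GL23Rec.Local
import Cfsg.Agent.Lib.GL23Rec.Fam

/-!
# A simple group of order `5616` with an involution centralizer `GL(2,3)` is `SL₃(3)`
-/

set_option autoImplicit false

namespace Cfsg.Agent.Lib.GL23Rec

open Subgroup Cfsg.Agent.Lib.Gross.GL23Table Cfsg.Agent.Lib.Gross.GL23Group

universe u

variable {G : Type u} [Group G] {t : G}

section main

variable [Finite G] (e : centralizer ({t} : Set G) ≃* GL0) (ht : orderOf t = 2)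
  (hno : ∀ N : Subgroup G, N.Normal → N.index ≠ 2)

include e ht hno

/-- An element of order three cycling the four-group. -/
lemma exists_sigma : ∃ σ : G, σ ^ 3 = 1 ∧ σ * t * σ⁻¹ = phi e d₀ ∧ σ * phi e d₀ * σ⁻¹ = t * phi e d₀ := by
  have hT := tuy e ht
  have hc' := phi_c e ht
  set u := phi e d₀ with hu
  have hu1 : u ≠ 1 := fun h => d_ne (phi_inj e (by rw [map_one]; exact h))
  have htu : t ≠ u := by
    intro h
    apply d_ne_c
    apply phi_inj e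
    rw [hc']
    exact h.symm
  have htt : t * t = 1 := by rw [← pow_two, hT.t2]
  have huu : u * u = 1 := by rw [← pow_two, hT.u2]
  obtain ⟨c, hc⟩ := isConj_iff.1 (all_conj' e ht hno hT.u2 hu1)
  -- `c u c⁻¹ = t`
  have hαcomm : (c * t * c⁻¹) * t = t * (c * t * c⁻¹) := by
    calc c * t * c⁻¹ * t = c * t * c⁻¹ * (c * u * c⁻¹) := by rw [hc]
      _ = c * (t * u) * c⁻¹ := by group
      _ = c * (u * t) * c⁻¹ := by rw [hT.tu]
      _ = (c * u * c⁻¹) * (c * t * c⁻¹) := by group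
      _ = t * (c * t * c⁻¹) := by rw [hc]
  obtain ⟨a, ha⟩ := exists_phi e hαcomm
  have ha2 : a ^ 2 = 1 := by
    apply phi_inj e
    rw [map_pow, ha, conj_pow, hT.t2, map_one]
    group
  have ha1 : a ≠ 1 := by
    intro h
    rw [h, map_one] at ha
    exact t_ne ht (conj_eq_one_iff.1 ha.symm)
  have hac : a ≠ c₀ := by
    intro h
    rw [h, hc'] at ha
    apply htu
    have h1 : c * t * c⁻¹ = c * u * c⁻¹ := by rw [hc, ← ha]
    have h2 := mul_right_cancel h1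
    exact mul_left_cancel h2
  obtain ⟨h', hh'⟩ := (table2 a).2.2.2.2.1 ha2 ha1 hac
  set h := phi e h' with hh
  have hht : h * t * h⁻¹ = t := by
    have h5 : h * t = t * h := phi_comm e h'
    rw [h5]
    group
  have hhu : h * u * h⁻¹ = c * t * c⁻¹ := by
    rw [← ha, ← hh']
    simp only [map_mul, map_inv]
    rfl
  -- the swap
  set n := c⁻¹ * h with hn
  have hnt : n * t * n⁻¹ = u := by
    calc n * t * n⁻¹ = c⁻¹ * (h * t * h⁻¹) * c := by rw [hn]; group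
      _ = c⁻¹ * t * c := by rw [hht]
      _ = c⁻¹ * (c * u * c⁻¹) * c := by rw [hc]
      _ = u := by group
  have hnu : n * u * n⁻¹ = t := by
    calc n * u * n⁻¹ = c⁻¹ * (h * u * h⁻¹) * c := by rw [hn]; group
      _ = c⁻¹ * (c * t * c⁻¹) * c := by rw [hhu]
      _ = t := by group
  set s := phi e s₀ with hs
  have hst : s * t * s⁻¹ = t := by
    have h5 : s * t = t * s := phi_comm e s₀
    rw [h5]
    group
  have hsu : s * u * s⁻¹ = t * u := by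
    have h5 := congrArg (phi e) s_d
    simp only [map_mul, map_inv] at h5
    rw [hc'] at h5
    exact h5
  set m := n * s with hm
  have e1 : m * t * m⁻¹ = u := by
    calc m * t * m⁻¹ = n * (s * t * s⁻¹) * n⁻¹ := by rw [hm]; group
      _ = u := by rw [hst, hnt]
  have e2 : m * u * m⁻¹ = t * u := by
    calc m * u * m⁻¹ = n * (s * u * s⁻¹) * n⁻¹ := by rw [hm]; group
      _ = n * (t * u) * n⁻¹ := by rw [hsu]
      _ = (n * t * n⁻¹) * (n * u * n⁻¹) := by group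
      _ = u * t := by rw [hnt, hnu]
      _ = t * u := hT.tu.symm
  have e3 : m * (t * u) * m⁻¹ = t := by
    calc m * (t * u) * m⁻¹ = (m * t * m⁻¹) * (m * u * m⁻¹) := by group
      _ = u * (t * u) := by rw [e1, e2]
      _ = (u * t) * u := by group
      _ = (t * u) * u := by rw [hT.tu]
      _ = t * (u * u) := by group
      _ = t := by rw [huu, mul_one]
  have hm3 : m ^ 3 = m * m * m := by rw [pow_succ, pow_two]
  have h3t : m ^ 3 * t * (m ^ 3)⁻¹ = t := by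
    rw [hm3]
    calc m * m * m * t * (m * m * m)⁻¹ = m * (m * (m * t * m⁻¹) * m⁻¹) * m⁻¹ := by group
      _ = m * (m * u * m⁻¹) * m⁻¹ := by rw [e1]
      _ = m * (t * u) * m⁻¹ := by rw [e2]
      _ = t := e3
  have h3u : m ^ 3 * u * (m ^ 3)⁻¹ = u := by
    rw [hm3]
    calc m * m * m * u * (m * m * m)⁻¹ = m * (m * (m * u * m⁻¹) * m⁻¹) * m⁻¹ := by group
      _ = m * (m * (t * u) * m⁻¹) * m⁻¹ := by rw [e2]
      _ = m * t * m⁻¹ := by rw [e3]
      _ = u := e1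
  have hct : m ^ 3 * t = t * m ^ 3 := by
    calc m ^ 3 * t = m ^ 3 * t * (m ^ 3)⁻¹ * m ^ 3 := by group
      _ = t * m ^ 3 := by rw [h3t]
  have hcu : m ^ 3 * u = u * m ^ 3 := by
    calc m ^ 3 * u = m ^ 3 * u * (m ^ 3)⁻¹ * m ^ 3 := by group
      _ = u * m ^ 3 := by rw [h3u]
  obtain ⟨g', hg'⟩ := exists_phi e hct
  have hg'd : g' * d₀ = d₀ * g' := by
    apply phi_inj e
    rw [map_mul, map_mul, hg']
    exact hcu
  have hg'2 : g' ^ 2 = 1 := (table2 g').2.2.2.1 hg'd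
  have hm6 : (m ^ 3) ^ 2 = 1 := by
    rw [← hg', ← map_pow, hg'2, map_one]
  refine ⟨m ^ 3 * m, ?_, ?_, ?_⟩
  · have : (m ^ 3 * m) ^ 3 = ((m ^ 3) ^ 2) ^ 2 := by
      rw [← pow_succ, ← pow_mul, ← pow_mul, ← pow_mul]
    rw [this, hm6, one_pow]
  · calc m ^ 3 * m * t * (m ^ 3 * m)⁻¹ = m ^ 3 * (m * t * m⁻¹) * (m ^ 3)⁻¹ := by group
      _ = u := by rw [e1, h3u]
  · calc m ^ 3 * m * u * (m ^ 3 * m)⁻¹ = m ^ 3 * (m * u * m⁻¹) * (m ^ 3)⁻¹ := by group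
      _ = m ^ 3 * (t * u) * (m ^ 3)⁻¹ := by rw [e2]
      _ = (m ^ 3 * t * (m ^ 3)⁻¹) * (m ^ 3 * u * (m ^ 3)⁻¹) := by group
      _ = t * u := by rw [h3t, h3u]

omit hno in
/-- Elements of order three fixed by `τ`, after moving `t` to `τ`. -/
lemma case_fix {ρ τ ν c : G} (hρ1 : ρ * t * ρ⁻¹ = τ) (hρ2 : ρ * ν * ρ⁻¹ = t)
    (hν : ν = phi e d₀ ∨ ν = t * phi e d₀) (hc1 : c ≠ 1) (hc3 : c ^ 3 = 1) (hcτ : c * τ = τ * c)
    (htc : t * c * t⁻¹ = c ∨ t * c * t⁻¹ = c⁻¹) :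
    ∃ g, (g = x₀ ∨ g = x₀⁻¹ ∨ g = x₁ ∨ g = x₁⁻¹) ∧ c = ρ * phi e g * ρ⁻¹ := by
  have h1 : (ρ⁻¹ * c * ρ) * t = t * (ρ⁻¹ * c * ρ) := by
    have e1 : t = ρ⁻¹ * τ * ρ := by rw [← hρ1]; group
    calc (ρ⁻¹ * c * ρ) * t = (ρ⁻¹ * c * ρ) * (ρ⁻¹ * τ * ρ) := by rw [← e1]
      _ = ρ⁻¹ * (c * τ) * ρ := by group
      _ = ρ⁻¹ * (τ * c) * ρ := by rw [hcτ]
      _ = (ρ⁻¹ * τ * ρ) * (ρ⁻¹ * c * ρ) := by group
      _ = t * (ρ⁻¹ * c * ρ) := by rw [← e1]
  obtain ⟨g, hg⟩ := exists_phi e h1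
  have hcg : c = ρ * phi e g * ρ⁻¹ := by rw [hg]; group
  have hg3 : g ^ 3 = 1 := by
    apply phi_inj e
    rw [map_pow, hg, map_one]
    rw [show ρ⁻¹ * c * ρ = ρ⁻¹ * c * ρ⁻¹⁻¹ by group, conj_pow, hc3]
    group
  have hg1 : g ≠ 1 := by
    intro h
    rw [h, map_one] at hcg
    apply hc1
    rw [hcg]
    group
  have h2 : ν * phi e g * ν⁻¹ = phi e g ∨ ν * phi e g * ν⁻¹ = (phi e g)⁻¹ := by
    have e2 : ν = ρ⁻¹ * t * ρ := by rw [← hρ2]; group
    have e3 : ν * phi e g * ν⁻¹ = ρ⁻¹ * (t * c * t⁻¹) * ρ := by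
      rw [e2, hg]
      group
    rcases htc with h | h
    · left
      rw [e3, h, hg]
    · right
      rw [e3, h, hg]
      group
  have h3 : phi e d₀ * phi e g * (phi e d₀)⁻¹ = phi e g ∨
      phi e d₀ * phi e g * (phi e d₀)⁻¹ = (phi e g)⁻¹ := by
    rcases hν with rfl | rfl
    · exact h2
    · have hcm : t * (phi e d₀ * phi e g * (phi e d₀)⁻¹) * t⁻¹ = phi e d₀ * phi e g * (phi e d₀)⁻¹ := by
        have : phi e d₀ * phi e g * (phi e d₀)⁻¹ = phi e (d₀ * g * d₀⁻¹) := by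
          simp only [map_mul, map_inv]
        rw [this, ← phi_comm e]
        group
      have h5 : t * phi e d₀ * phi e g * (t * phi e d₀)⁻¹ =
          t * (phi e d₀ * phi e g * (phi e d₀)⁻¹) * t⁻¹ := by group
      rw [h5, hcm] at h2
      exact h2
  have h4 : d₀ * g * d₀⁻¹ = g ∨ d₀ * g * d₀⁻¹ = g⁻¹ := by
    rcases h3 with h | h
    · left
      apply phi_inj e
      simpa only [map_mul, map_inv] using h
    · right
      apply phi_inj e
      simpa only [map_mul, map_inv] using h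
  exact ⟨g, (table2 g).2.1 hg3 hg1 h4, hcg⟩

/-- The commuting relations. -/
lemma comm_sigma {Q : Subgroup G} (hL : Loc t (phi e d₀) (phi e x₀) Q)
    (hG : (Nat.card G).factorization 3 = 3) {σ : G} (hσ : σ ^ 3 = 1)
    (h1 : σ * t * σ⁻¹ = phi e d₀) (h2 : σ * phi e d₀ * σ⁻¹ = t * phi e d₀) :
    phi e x₀ * (σ * phi e x₁ * σ⁻¹) = (σ * phi e x₁ * σ⁻¹) * phi e x₀ ∧
    phi e x₀ * (σ * (σ * phi e x₁ * σ⁻¹) * σ⁻¹) = (σ * (σ * phi e x₁ * σ⁻¹) * σ⁻¹) * phi e x₀ := by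
  have hT := tuy e ht
  have nt := no_triangle hT hL hG hσ h1 h2
  have hc' := phi_c e ht
  set u := phi e d₀ with hu
  set y := phi e x₀ with hy
  set w := phi e x₁ with hw
  have hu1 : u ≠ 1 := fun h => d_ne (phi_inj e (by rw [map_one]; exact h))
  have hcd : phi e (c₀ * d₀) = t * u := by rw [map_mul, hc']
  have htu2 : (t * u) ^ 2 = 1 := by
    rw [← hcd, ← map_pow, cd_sq, map_one]
  have htu1 : t * u ≠ 1 := by
    rw [← hcd]
    exact fun h => cd_ne (phi_inj e (by rw [h, map_one]))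
  have hsm : ∀ τ : G, τ ^ 2 = 1 → τ ≠ 1 → ∀ H : Subgroup G, H ≤ Q → H ≤ centralizer ({τ} : Set G) →
      Nat.card H ∣ 3 := by
    intro τ hτ hτ1 H hHQ hH
    apply small e ht hno hτ hτ1 H _ hH
    have := Subgroup.card_dvd_of_le hHQ
    rwa [hL.card] at this
  have htt : t * t = 1 := by rw [← pow_two, hT.t2]
  have htt' : t * (t * u) = u := by rw [← mul_assoc, htt, one_mul]
  have htcomm : t * (t * u) = (t * u) * t := by
    rw [htt', mul_assoc, ← hT.tu, ← mul_assoc, htt, one_mul]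
  have hut : σ * (t * u) * σ⁻¹ = t := by
    calc σ * (t * u) * σ⁻¹ = (σ * t * σ⁻¹) * (σ * u * σ⁻¹) := by group
      _ = u * (t * u) := by rw [h1, h2]
      _ = (u * t) * u := by group
      _ = (t * u) * u := by rw [hT.tu]
      _ = t * (u * u) := by group
      _ = t := by rw [← pow_two u, hT.u2, mul_one]
  have htQ : ∀ a ∈ Q, (t * u) * a * (t * u)⁻¹ ∈ Q := by
    intro a ha
    have h5 : (t * u) * a * (t * u)⁻¹ = t * (u * a * u⁻¹) * t⁻¹ := by group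
    rw [h5]
    exact hL.t_mem _ (hL.u_mem a ha)
  -- the two elements
  have key : ∀ (τ : G), τ ^ 2 = 1 → τ ≠ 1 → t * τ = τ * t → ∀ c ∈ Q, c ≠ 1 → c * τ = τ * c →
      c ^ 3 = 1 ∧ (t * c * t⁻¹ = c ∨ t * c * t⁻¹ = c⁻¹) := by
    intro τ hτ hτ1 htτ c hc hc1 hcτ
    obtain ⟨hc3, hfix⟩ := fix_data hL.card (hsm τ hτ hτ1) hc hc1 hcτ
    refine ⟨hc3, ?_⟩
    have h5 : (t * c * t⁻¹) * τ = τ * (t * c * t⁻¹) := by
      have e1 : τ = t * τ * t⁻¹ := by rw [htτ]; group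
      calc (t * c * t⁻¹) * τ = (t * c * t⁻¹) * (t * τ * t⁻¹) := by rw [← e1]
        _ = t * (c * τ) * t⁻¹ := by group
        _ = t * (τ * c) * t⁻¹ := by rw [hcτ]
        _ = (t * τ * t⁻¹) * (t * c * t⁻¹) := by group
        _ = τ * (t * c * t⁻¹) := by rw [← e1]
    rcases hfix _ (hL.t_mem c hc) h5 with h6 | h6 | h6
    · exact absurd (conj_eq_one_iff.1 h6) hc1
    · exact Or.inl h6
    · exact Or.inr h6
  constructor
  · obtain ⟨c, hcQ, hc1, hcu⟩ := exists_fix hL.card hT.t2 hT.u2 hL.t_mem hL.u_mem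
      (hsm t hT.t2 (t_ne ht)) (hsm (t * u) htu2 htu1)
    obtain ⟨hc3, htc⟩ := key u hT.u2 hu1 hT.tu c hcQ hc1 hcu
    obtain ⟨g, hg, hcg⟩ := case_fix e ht (ρ := σ) (τ := u) (ν := t * u) h1 hut (Or.inr rfl) hc1 hc3 hcu htc
    have hcy := hL.comm c hcQ
    rw [hcg] at hcy
    rcases hg with rfl | rfl | rfl | rfl
    · exact absurd hcy.symm nt
    · exfalso
      rw [map_inv] at hcy
      have h5 : σ * (phi e x₀)⁻¹ * σ⁻¹ = (σ * phi e x₀ * σ⁻¹)⁻¹ := by group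
      rw [h5] at hcy
      have h6 := (show Commute (σ * phi e x₀ * σ⁻¹)⁻¹ y from hcy).inv_left
      rw [inv_inv] at h6
      exact nt h6.eq.symm
    · exact hcy.symm
    · rw [map_inv] at hcy
      have h5 : σ * (phi e x₁)⁻¹ * σ⁻¹ = (σ * phi e x₁ * σ⁻¹)⁻¹ := by group
      rw [h5] at hcy
      have h6 := (show Commute (σ * phi e x₁ * σ⁻¹)⁻¹ y from hcy).inv_left
      rw [inv_inv] at h6
      exact h6.eq.symm
  · have hnn : ∀ x : G, σ * (σ * x * σ⁻¹) * σ⁻¹ = (σ * σ) * x * (σ * σ)⁻¹ := fun x => by group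
    obtain ⟨c, hcQ, hc1, hcu⟩ := exists_fix (τ := t * u) hL.card hT.t2 htu2 hL.t_mem htQ
      (hsm t hT.t2 (t_ne ht)) (by rw [htt']; exact hsm u hT.u2 hu1)
    obtain ⟨hc3, htc⟩ := key (t * u) htu2 htu1 htcomm c hcQ hc1 hcu
    have hρ1 : (σ * σ) * t * (σ * σ)⁻¹ = t * u := by
      rw [← hnn, h1, h2]
    have hρ2 : (σ * σ) * u * (σ * σ)⁻¹ = t := by
      rw [← hnn, h2, hut]
    obtain ⟨g, hg, hcg⟩ := case_fix e ht (ρ := σ * σ) (τ := t * u) (ν := u) hρ1 hρ2 (Or.inl rfl) hc1 hc3 hcu htc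
    have hcy := hL.comm c hcQ
    rw [hcg, ← hnn] at hcy
    have hS3 : ∀ x : G, σ * (σ * (σ * x * σ⁻¹) * σ⁻¹) * σ⁻¹ = x := by
      intro x
      have : σ * (σ * (σ * x * σ⁻¹) * σ⁻¹) * σ⁻¹ = σ ^ 3 * x * (σ ^ 3)⁻¹ := by
        rw [show σ ^ 3 = σ * σ * σ by rw [pow_succ, pow_two]]
        group
      rw [this, hσ]
      simp
    have no2 : ¬ ((σ * (σ * phi e x₀ * σ⁻¹) * σ⁻¹) * y = y * (σ * (σ * phi e x₀ * σ⁻¹) * σ⁻¹)) := by
      intro h
      have e1 : ∀ A B : G, σ * (A * B) * σ⁻¹ = (σ * A * σ⁻¹) * (σ * B * σ⁻¹) := fun A B => by group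
      have h5 : (σ * (σ * (σ * phi e x₀ * σ⁻¹) * σ⁻¹) * σ⁻¹) * (σ * y * σ⁻¹) =
          (σ * y * σ⁻¹) * (σ * (σ * (σ * phi e x₀ * σ⁻¹) * σ⁻¹) * σ⁻¹) := by
        rw [← e1, ← e1]
        exact congrArg (fun z => σ * z * σ⁻¹) h
      rw [hS3] at h5
      exact nt h5
    rcases hg with rfl | rfl | rfl | rfl
    · exact absurd hcy no2
    · exfalso
      rw [map_inv] at hcy
      have h5 : σ * (σ * (phi e x₀)⁻¹ * σ⁻¹) * σ⁻¹ = (σ * (σ * phi e x₀ * σ⁻¹) * σ⁻¹)⁻¹ := by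
        simp [mul_assoc]
      rw [h5] at hcy
      have h6 := (show Commute (σ * (σ * phi e x₀ * σ⁻¹) * σ⁻¹)⁻¹ y from hcy).inv_left
      rw [inv_inv] at h6
      exact no2 h6.eq
    · exact hcy.symm
    · rw [map_inv] at hcy
      have h5 : σ * (σ * (phi e x₁)⁻¹ * σ⁻¹) * σ⁻¹ = (σ * (σ * phi e x₁ * σ⁻¹) * σ⁻¹)⁻¹ := by
        simp [mul_assoc]
      rw [h5] at hcy
      have h6 := (show Commute (σ * (σ * phi e x₁ * σ⁻¹) * σ⁻¹)⁻¹ y from hcy).inv_left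
      rw [inv_inv] at h6
      exact h6.eq.symm

/-- The conclusion in order `5616`. -/
theorem main_5616 [IsSimpleGroup G] (hc : Nat.card G = 5616) :
    Nonempty (G ≃* Cfsg.Agent.Lib.L33Rec.SL3) := by
  have hG : (Nat.card G).factorization 3 = 3 := by rw [hc, fact_three]
  have hT := tuy e ht
  have hc' := phi_c e ht
  obtain ⟨σ, hσ, h1, h2⟩ := exists_sigma e ht hno
  obtain ⟨Q, hQ⟩ := exists_Q e ht hno hc
  let e₁ : centralizer ({t} : Set G) ≃* GL0 := e.trans (MulAut.conj s₀⁻¹)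
  have hphi : ∀ g, phi e₁ g = phi e (s₀ * g * s₀⁻¹) := by
    intro g
    rw [phi_apply, phi_apply]
    show (e.symm ((MulAut.conj s₀⁻¹).symm g) : G) = _
    rw [MulAut.conj_symm_apply, inv_inv]
  have hy₁ : phi e₁ x₀ = phi e x₁ := by rw [hphi, s_x]
  have hu₁ : phi e₁ d₀ = t * phi e d₀ := by rw [hphi, s_d, map_mul, hc']
  obtain ⟨Q', hQ'⟩ := exists_Q e₁ ht hno hc
  rw [hy₁, hu₁] at hQ'
  have hT₁ := tuy e₁ ht
  rw [hy₁, hu₁] at hT₁
  set u := phi e d₀ with hu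
  set y := phi e x₀ with hy
  set w := phi e x₁ with hw
  have hw3 : w ^ 3 = 1 := hT₁.y3
  have hww : w ≠ 1 := hT₁.y1
  haveI : Fact (Nat.Prime 3) := ⟨Nat.prime_three⟩
  have hy3o : orderOf y = 3 := orderOf_eq_prime hT.y3 hT.y1
  have hw3o : orderOf w = 3 := orderOf_eq_prime hw3 hww
  obtain ⟨c1, c2⟩ := comm_sigma e ht hno hQ hG hσ h1 h2
  let S : G →* G := (MulAut.conj σ).toMonoidHom
  have hS : ∀ x, S x = σ * x * σ⁻¹ := fun x => rfl
  have hS3 : ∀ x, S (S (S x)) = x := by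
    intro x
    simp only [hS]
    have : σ * (σ * (σ * x * σ⁻¹) * σ⁻¹) * σ⁻¹ = σ ^ 3 * x * (σ ^ 3)⁻¹ := by
      rw [show σ ^ 3 = σ * σ * σ by rw [pow_succ, pow_two]]
      group
    rw [this, hσ]
    simp
  have hS13 : ∀ x : G, x ^ 3 = 1 → (S x) ^ 3 = 1 := by
    intro x hx
    rw [← map_pow, hx, map_one]
  have c1' : y * S w = S w * y := c1
  have c2' : y * S (S w) = S (S w) * y := c2
  have c3 : S (S y) * w = w * S (S y) := by
    have := congrArg S (congrArg S c1')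
    simpa only [map_mul, hS3] using this
  have c4 : S y * w = w * S y := by
    have := congrArg S c2'
    simpa only [map_mul, hS3] using this
  have nt₀ : ¬ (y * S y = S y * y) := no_triangle hT hQ hG hσ h1 h2
  -- no triangle for `w`
  have hσi : σ⁻¹ ^ 3 = 1 := by rw [inv_pow, hσ, inv_one]
  have hSi : ∀ x : G, σ⁻¹ * x * σ⁻¹⁻¹ = S (S x) := by
    intro x
    have h5 : σ * σ = σ⁻¹ := by
      apply eq_inv_of_mul_eq_one_left
      rw [← hσ, show σ ^ 3 = σ * σ * σ by rw [pow_succ, pow_two]]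
    calc σ⁻¹ * x * σ⁻¹⁻¹ = (σ * σ) * x * (σ * σ)⁻¹ := by rw [h5]
      _ = σ * (σ * x * σ⁻¹) * σ⁻¹ := by group
  have hStu : S (t * u) = t := by
    rw [map_mul]
    show (σ * t * σ⁻¹) * (σ * u * σ⁻¹) = t
    rw [h1, h2]
    calc u * (t * u) = (u * t) * u := by group
      _ = (t * u) * u := by rw [hT.tu]
      _ = t * (u * u) := by group
      _ = t := by rw [← pow_two u, hT.u2, mul_one]
  have h1' : σ⁻¹ * t * σ⁻¹⁻¹ = t * u := by
    rw [hSi]
    show σ * (σ * t * σ⁻¹) * σ⁻¹ = t * u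
    rw [h1, h2]
  have h2' : σ⁻¹ * (t * u) * σ⁻¹⁻¹ = t * (t * u) := by
    rw [hSi, hStu]
    show σ * t * σ⁻¹ = t * (t * u)
    rw [h1, ← mul_assoc, ← pow_two, hT.t2, one_mul]
  have nt₁ : ¬ (w * S (S w) = S (S w) * w) := by
    have := no_triangle hT₁ hQ' hG hσi h1' h2'
    rwa [hSi] at this
  -- the two commutators
  have hSwQ : S w ∈ Q := hQ.mem _ c1'.symm (hS13 _ hw3)
  have hSSwQ : S (S w) ∈ Q := hQ.mem _ c2'.symm (hS13 _ (hS13 _ hw3))
  have hyQ : y ∈ Q := hQ.mem y rfl hT.y3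
  have hSyQ' : S y ∈ Q' := hQ'.mem _ c4 (hS13 _ hT.y3)
  have hSSyQ' : S (S y) ∈ Q' := hQ'.mem _ c3 (hS13 _ (hS13 _ hT.y3))
  have hwQ' : w ∈ Q' := hQ'.mem w rfl hw3
  have hab : ∀ a b : G, a * b * a⁻¹ * b⁻¹ = 1 → a * b = b * a := by
    intro a b h
    calc a * b = (a * b * a⁻¹ * b⁻¹) * (b * a) := by group
      _ = b * a := by rw [h, one_mul]
  have ha : S w * S (S w) * (S w)⁻¹ * (S (S w))⁻¹ = y ∨ S w * S (S w) * (S w)⁻¹ * (S (S w))⁻¹ = y⁻¹ := by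
    rcases mem_zpowers_three hT.y3 (comm_mem_zpowers hQ.card hyQ hy3o hQ.comm hSwQ hSSwQ) with h | h | h
    · exfalso
      have h5 := congrArg S (hab _ _ h)
      rw [map_mul, map_mul, hS3] at h5
      exact nt₁ h5.symm
    · exact Or.inl h
    · exact Or.inr h
  have hb : S (S y) * S y * (S (S y))⁻¹ * (S y)⁻¹ = w ∨ S (S y) * S y * (S (S y))⁻¹ * (S y)⁻¹ = w⁻¹ := by
    rcases mem_zpowers_three hw3 (comm_mem_zpowers hQ'.card hwQ' hw3o hQ'.comm hSSyQ' hSyQ') with h | h | h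
    · exfalso
      have h5 := congrArg S (congrArg S (hab _ _ h))
      simp only [map_mul, hS3] at h5
      exact nt₀ h5.symm
    · exact Or.inl h
    · exact Or.inr h
  exact iso_of_S hc S hS3 hT.y3 hw3 hT.y1 c1' c2' ha hb rfl rfl

end main

end Cfsg.Agent.Lib.GL23Rec
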